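import Cfsg.Agent.ZJ.ComplementTwo
import Cfsg.Agent.Subnormal.BaerSuzuki

/-!
A minimal offender in a group with quadratic `2`-subgroups lies in the largest normal `2`-subgroup, unless two
elements act as the symmetric group of degree three on a section of order four.
-/

set_option autoImplicit false
set_option linter.style.haveILetI false
set_option linter.unusedSectionVars false

namespace CfsgLib.ZJ

variable {V : Type*} [CommGroup V] [Finite V]

/-- The fixed points of a group of automorphisms. -/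
def fixV (A : Subgroup (MulAut V)) : Subgroup V where
  carrier := {v | ∀ a ∈ A, a v = v}
  one_mem' := fun a _ => map_one a
  mul_mem' := fun hx hy a ha => by rw [map_mul, hx a ha, hy a ha]
  inv_mem' := fun hx a ha => by rw [map_inv, hx a ha]

theorem mem_fixV {A : Subgroup (MulAut V)} {v : V} : v ∈ fixV A ↔ ∀ a ∈ A, a v = v := Iff.rfl

theorem fixV_map_conj (A : Subgroup (MulAut V)) (g : MulAut V) :
    fixV (A.map (MulAut.conj g).toMonoidHom) = (fixV A).map g.toMonoidHom := by
  ext v
  refine ⟨fun h => ⟨g⁻¹ v, fun a ha => ?_, MulEquiv.apply_symm_apply g v⟩, ?_⟩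
  · have h1 := h _ ⟨a, ha, rfl⟩
    have h2 := congrArg (⇑g⁻¹) h1
    simpa using h2
  · rintro ⟨w, hw, rfl⟩ _ ⟨a, ha, rfl⟩
    simp [hw a ha]

theorem card_fixV_map_conj (A : Subgroup (MulAut V)) (g : MulAut V) :
    Nat.card (fixV (A.map (MulAut.conj g).toMonoidHom)) = Nat.card (fixV A) := by
  rw [fixV_map_conj, Subgroup.card_map_of_injective g.injective]

/-- The automorphisms fixing `F` and the coset `wF`. -/
def stabCoset (F : Subgroup V) (w : V) : Subgroup (MulAut V) where
  carrier := {x | (∀ f ∈ F, x f = f) ∧ x w * w⁻¹ ∈ F}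
  one_mem' := ⟨fun f _ => rfl, by simp⟩
  mul_mem' := fun {x y} hx hy => ⟨fun f hf => by rw [MulAut.mul_apply, hy.1 f hf, hx.1 f hf], by
    have h := F.mul_mem hy.2 hx.2
    rw [← hx.1 _ hy.2, map_mul, map_inv] at h
    simpa [mul_assoc] using h⟩
  inv_mem' := fun {x} hx => ⟨fun f hf => by
    have := congrArg (⇑x⁻¹) (hx.1 f hf)
    simpa using this.symm, by
    have h := F.inv_mem hx.2
    have h2 : x⁻¹ ((x w * w⁻¹)⁻¹) = (x w * w⁻¹)⁻¹ := by
      have := congrArg (⇑x⁻¹) (hx.1 _ h)
      simpa using this.symm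
    rw [← h2] at h
    simpa [map_mul, map_inv, mul_comm] using h⟩

theorem mem_stabCoset {F : Subgroup V} {w : V} {x : MulAut V} :
    x ∈ stabCoset F w ↔ (∀ f ∈ F, x f = f) ∧ x w * w⁻¹ ∈ F := Iff.rfl

/-- A minimal offender. -/
structure MinOffender (A : Subgroup (MulAut V)) : Prop where
  ne_bot : A ≠ ⊥
  isPGroup : IsPGroup 2 A
  le_card : Nat.card V ≤ Nat.card A * Nat.card (fixV A)
  minimal : ∀ B, B ≠ ⊥ → B < A → Nat.card B * Nat.card (fixV B) < Nat.card V

theorem MinOffender.map_conj {A : Subgroup (MulAut V)} (h : MinOffender A) (g : MulAut V) :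
    MinOffender (A.map (MulAut.conj g).toMonoidHom) := by
  have hcard : ∀ B : Subgroup (MulAut V), Nat.card (B.map (MulAut.conj g).toMonoidHom) = Nat.card B :=
    fun B => Subgroup.card_map_of_injective (MulAut.conj g).injective
  refine ⟨fun e => h.ne_bot ?_, h.isPGroup.map _, ?_, fun B hB hBA => ?_⟩
  · exact (Subgroup.map_eq_bot_iff_of_injective _ (MulAut.conj g).injective).1 e
  · rw [hcard, card_fixV_map_conj]; exact h.le_card
  · obtain ⟨B', rfl⟩ : ∃ B' : Subgroup (MulAut V), B'.map (MulAut.conj g).toMonoidHom = B :=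
      ⟨_, Subgroup.map_comap_eq_self_of_surjective (MulAut.conj g).surjective B⟩
    rw [hcard, card_fixV_map_conj]
    refine h.minimal B' (fun e => hB (by rw [e, Subgroup.map_bot])) ?_
    exact ⟨(Subgroup.map_le_map_iff_of_injective (MulAut.conj g).injective).1 hBA.le,
      fun hle => hBA.2 (Subgroup.map_mono hle)⟩

/-- The elements of `A` centralizing `B`. -/
abbrev centPart (A B : Subgroup (MulAut V)) : Subgroup (MulAut V) :=
  A ⊓ Subgroup.centralizer (B : Set (MulAut V))

/-- Evaluation at a point moved by `A` covers the fixed points of `A` modulo those of the join. -/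
theorem exists_hit (hexp : ∀ v : V, v * v = 1) {A B : Subgroup (MulAut V)} (hA : MinOffender A)
    (hq : ∀ a ∈ A, ∀ b ∈ A, ∀ v : V, a (b v * v) = b v * v)
    {g : MulAut V} (hg : g ∈ A ⊔ B) (hB : A.map (MulAut.conj g).toMonoidHom = B)
    (hstep : ∀ a ∈ A, A ≤ Subgroup.zpowers a ⊔ B ∨ a ∈ Subgroup.centralizer (B : Set (MulAut V)))
    {w : V} (hw : w ∈ fixV B) (hmv : ∃ a ∈ A, a w * w ∉ fixV A ⊓ fixV B) :
    ∀ u ∈ fixV A, ∃ a ∈ A, a w * w * u ∈ fixV A ⊓ fixV B := by
  have hinv : ∀ v : V, v⁻¹ = v := fun v => inv_eq_of_mul_eq_one_right (hexp v)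
  set C := fixV A with hC
  set C' := fixV B with hC'
  set F := C ⊓ C' with hF
  set Z := centPart A B with hZ
  -- the map
  let f : A →* V ⧸ F :=
    { toFun := fun a => QuotientGroup.mk' F ((a : MulAut V) w * w)
      map_one' := by rw [← map_one (QuotientGroup.mk' F)]; congr 1; exact hexp w
      map_mul' := fun a b => by
        rw [← map_mul]
        congr 1
        have h := hq a a.2 b b.2 w
        rw [map_mul] at h
        show (a : MulAut V) ((b : MulAut V) w) * w = _
        rw [eq_mul_inv_of_mul_eq h, hinv]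
        ac_rfl }
  have hrange : f.range ≤ C.map (QuotientGroup.mk' F) := by
    rintro _ ⟨a, rfl⟩
    exact ⟨_, fun a' ha' => hq a' ha' a a.2 w, rfl⟩
  -- the kernel
  have hFA : ∀ x ∈ A ⊔ B, ∀ f ∈ F, x f = f := by
    intro x hx f hf
    have hle : A ⊔ B ≤ stabCoset F f := sup_le
      (fun a ha => ⟨fun k hk => hk.1 a ha, by rw [hf.1 a ha, mul_inv_cancel]; exact one_mem _⟩)
      (fun a ha => ⟨fun k hk => hk.2 a ha, by rw [hf.2 a ha, mul_inv_cancel]; exact one_mem _⟩)
    exact (hle hx).1 f hf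
  have hker : f.ker.map A.subtype ≤ Z := by
    rintro _ ⟨a, ha, rfl⟩
    refine ⟨a.2, (hstep a a.2).resolve_left fun hle => ?_⟩
    obtain ⟨a₁, ha₁, ha₁w⟩ := hmv
    have hle2 : Subgroup.zpowers (a : MulAut V) ⊔ B ≤ stabCoset F w :=
      sup_le (Subgroup.zpowers_le.2 ⟨hFA _ (Subgroup.mem_sup_left a.2), by
          rw [hinv]; exact (QuotientGroup.eq_one_iff _).1 ha⟩)
        (fun b hb => ⟨hFA _ (Subgroup.mem_sup_right hb), by rw [hw b hb, mul_inv_cancel]; exact one_mem _⟩)
    have h2 := (hle2 (hle ha₁)).2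
    rw [hinv] at h2
    exact ha₁w h2
  -- the fixed points of the central part
  set V₁ := fixV Z with hV₁
  have hCV : C ≤ V₁ := fun v hv z hz => hv z hz.1
  have hC'V : C' ≤ V₁ := by
    rw [hC', ← hB, fixV_map_conj]
    rintro _ ⟨v, hv, rfl⟩ z hz
    have hzg : Commute g z := by
      have hle : A ⊔ B ≤ Subgroup.centralizer ({z} : Set (MulAut V)) := by
        refine sup_le (fun a ha => Subgroup.mem_centralizer_singleton_iff.2 ?_)
          (fun b hb => Subgroup.mem_centralizer_singleton_iff.2 (Subgroup.mem_centralizer_iff.1 hz.2 b hb))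
        refine MulEquiv.ext fun v => ?_
        have h := hq a ha z hz.1 v
        have h' := hq z hz.1 a ha v
        rw [map_mul] at h h'
        show a (z v) = z (a v)
        rw [eq_mul_inv_of_mul_eq h, eq_mul_inv_of_mul_eq h', hinv, hinv]
        ac_rfl
      exact Subgroup.mem_centralizer_singleton_iff.1 (hle hg)
    show z (g v) = g v
    rw [← MulAut.mul_apply, ← hzg.eq, MulAut.mul_apply, hv z hz.1]
  have hcard : Nat.card C' = Nat.card C := by rw [hC', ← hB, card_fixV_map_conj]
  have hrel : Nat.card (C.map (QuotientGroup.mk' F)) = F.relIndex C := by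
    rw [← Subgroup.relIndex_ker, QuotientGroup.ker_mk']
  have hrel' : F.relIndex C = F.relIndex C' := by
    have h1 := Subgroup.relIndex_mul_relIndex ⊥ F C bot_le inf_le_left
    have h2 := Subgroup.relIndex_mul_relIndex ⊥ F C' bot_le inf_le_right
    rw [Subgroup.relIndex_bot_left, Subgroup.relIndex_bot_left] at h1 h2
    exact Nat.eq_of_mul_eq_mul_left Nat.card_pos (by rw [h1, h2, hcard])
  have hle₁ : F.relIndex C' ≤ C.relIndex V₁ := by
    rw [hF, Subgroup.inf_relIndex_right]
    exact Subgroup.relIndex_le_of_le_right hC'V (Subgroup.index_ne_zero_of_finite (H := C.subgroupOf V₁))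
  have hV₁c : Nat.card V₁ = Nat.card C * C.relIndex V₁ := by
    have h1 := Subgroup.relIndex_mul_relIndex ⊥ C V₁ bot_le hCV
    rwa [Subgroup.relIndex_bot_left, Subgroup.relIndex_bot_left, eq_comm] at h1
  have hbound : Nat.card Z * C.relIndex V₁ ≤ Nat.card A := by
    refine Nat.le_of_mul_le_mul_left ?_ (Nat.card_pos (α := C))
    rw [mul_comm (Nat.card C) (Nat.card A), mul_left_comm, ← hV₁c]
    refine le_trans ?_ hA.le_card
    by_cases h0 : Z = ⊥
    · rw [h0, Subgroup.card_bot, one_mul]; exact Subgroup.card_le_card_group _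
    · by_cases hZA : Z = A
      · exfalso
        obtain ⟨a₁, ha₁, ha₁w⟩ := hmv
        refine ha₁w ⟨fun a' ha' => hq a' ha' a₁ ha₁ w, fun b hb => ?_⟩
        have hc : a₁ ∈ Z := hZA ▸ ha₁
        have hcm := Subgroup.mem_centralizer_iff.1 hc.2 b hb
        rw [map_mul, hw b hb, ← MulAut.mul_apply, hcm, MulAut.mul_apply, hw b hb]
      · exact (hA.minimal Z h0 (lt_of_le_of_ne inf_le_left hZA)).le
  have hfull : f.range = C.map (QuotientGroup.mk' F) := by
    refine Subgroup.eq_of_le_of_card_ge hrange ?_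
    rw [hrel, hrel']
    refine hle₁.trans (Nat.le_of_mul_le_mul_left ?_ (Nat.card_pos (α := Z)))
    refine hbound.trans ?_
    have h1 : Nat.card f.ker * Nat.card f.range = Nat.card A := by
      rw [← Subgroup.index_ker, Subgroup.card_mul_index]
    rw [← h1]
    refine Nat.mul_le_mul_right _ ?_
    rw [← Subgroup.card_map_of_injective (K := f.ker) (f := A.subtype) A.subtype_injective]
    exact Subgroup.card_le_of_le hker
  intro u hu
  obtain ⟨a, ha⟩ : QuotientGroup.mk' F u ∈ f.range := hfull ▸ Subgroup.mem_map_of_mem _ hu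
  refine ⟨a, a.2, (QuotientGroup.eq_one_iff _).1 ?_⟩
  show QuotientGroup.mk' F ((a : MulAut V) w * w * u) = 1
  rw [map_mul]
  show f a * _ = 1
  rw [ha, ← map_mul, hexp, map_one]

/-- A minimal offender lies in the largest normal `2`-subgroup of any group containing it. -/
theorem minOffender_le_pCore (hexp : ∀ v : V, v * v = 1) (H : Subgroup (MulAut V))
    (hq : ∀ X : Subgroup (MulAut V), X ≤ H → IsPGroup 2 X → ∀ a ∈ X, ∀ b ∈ X, ∀ v : V, a (b v * v) = b v * v)
    (hpat : ∀ a ∈ H, ∀ b ∈ H, ∀ (F : Subgroup V) (u w : V), (∀ f ∈ F, a f = f) → (∀ f ∈ F, b f = f) →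
      u ∉ F → w ∉ F → a u = u → b w = w → a w * w * u ∈ F → b u * u * w ∈ F → False)
    (X : Subgroup (MulAut V)) (hX : X ≤ H) (A : Subgroup (MulAut V)) (hA : MinOffender A) (hAX : A ≤ X) :
    A.subgroupOf X ≤ Cfsg.pCore 2 X := by
  classical
  haveI : Fact (Nat.Prime 2) := ⟨Nat.prime_two⟩
  obtain ⟨n, hn⟩ : ∃ n, Nat.card X = n := ⟨_, rfl⟩
  induction n using Nat.strong_induction_on generalizing X A with
  | h n IH =>
    subst hn
    refine CfsgLib.Subnormal.le_pCore_of_forall_isPGroup fun g₀ => ?_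
    set g : MulAut V := (g₀ : MulAut V) with hgdef
    set B := A.map (MulAut.conj g).toMonoidHom with hBdef
    have hBX : B ≤ X := by
      rintro _ ⟨a, ha, rfl⟩
      exact X.mul_mem (X.mul_mem g₀.2 (hAX ha)) (X.inv_mem g₀.2)
    have hconv : (A.subgroupOf X).map (MulAut.conj g₀).toMonoidHom = B.subgroupOf X := by
      ext y
      refine ⟨?_, fun hy => ?_⟩
      · rintro ⟨a, ha, rfl⟩; exact ⟨a, ha, rfl⟩
      · obtain ⟨a, ha, hay⟩ := hy
        exact ⟨⟨a, hAX ha⟩, ha, Subtype.ext hay⟩
    rw [hconv, ← Subgroup.subgroupOf_sup hAX hBX]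
    suffices h : IsPGroup 2 ↥(A ⊔ B) from h.of_equiv (Subgroup.subgroupOfEquivOfLe (sup_le hAX hBX)).symm
    have hB : MinOffender B := hA.map_conj g
    -- proper subgroups
    have hsub : ∀ (Y : Subgroup (MulAut V)), Y < X → ∀ D, MinOffender D → D ≤ Y →
        D ≤ (Cfsg.pCore 2 Y).map Y.subtype := fun Y hY D hD hDY d hd =>
      ⟨⟨d, hDY hd⟩, IH _ (by
        rcases lt_or_eq_of_le (Subgroup.card_le_of_le hY.le) with h | h
        · exact h
        · exact absurd (Subgroup.eq_of_le_of_card_ge hY.le h.ge) hY.ne) Y (hY.le.trans hX) D hD hDY rfl hd, rfl⟩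
    have hcoreP : ∀ Y : Subgroup (MulAut V), IsPGroup 2 ((Cfsg.pCore 2 Y).map Y.subtype) :=
      fun Y => (CfsgLib.PCore.isPGroup_pCore 2 Y).map _
    rcases lt_or_eq_of_le (sup_le hAX hBX) with hlt | heq
    · exact (hcoreP _).to_le (sup_le (hsub _ hlt A hA le_sup_left) (hsub _ hlt B hB le_sup_right))
    by_contra hnp
    have hinv : ∀ v : V, v⁻¹ = v := fun v => inv_eq_of_mul_eq_one_right (hexp v)
    have hAq := hq A (hAX.trans hX) hA.isPGroup
    have hBq := hq B (hBX.trans hX) hB.isPGroup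
    have hcomm : ∀ Y : Subgroup (MulAut V), Y ≤ H → IsPGroup 2 Y → ∀ a ∈ Y, ∀ b ∈ Y, a * b = b * a := by
      intro Y hY hYp a ha b hb
      refine MulEquiv.ext fun v => ?_
      have h := hq Y hY hYp a ha b hb v
      have h' := hq Y hY hYp b hb a ha v
      rw [map_mul] at h h'
      show a (b v) = b (a v)
      rw [eq_mul_inv_of_mul_eq h, eq_mul_inv_of_mul_eq h', hinv, hinv]
      ac_rfl
    have hstep : ∀ A' B' : Subgroup (MulAut V), MinOffender A' → MinOffender B' → A' ⊔ B' = X →
        ∀ a ∈ A', A' ≤ Subgroup.zpowers a ⊔ B' ∨ a ∈ Subgroup.centralizer (B' : Set (MulAut V)) := by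
      intro A' B' hA' hB' he a ha
      by_cases hfull : Subgroup.zpowers a ⊔ B' = X
      · exact Or.inl (hfull ▸ he ▸ le_sup_left)
      refine Or.inr (Subgroup.mem_centralizer_iff.2 fun b hb => ?_)
      have hle : Subgroup.zpowers a ⊔ B' ≤ X :=
        sup_le (Subgroup.zpowers_le.2 (he ▸ Subgroup.mem_sup_left ha)) (he ▸ le_sup_right)
      set Y := Subgroup.zpowers a ⊔ B' with hY
      set O := (Cfsg.pCore 2 Y).map Y.subtype with hO
      have hBO : B' ≤ O := hsub Y (lt_of_le_of_ne hle hfull) B' hB' le_sup_right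
      have hn : Subgroup.zpowers a ≤ Subgroup.normalizer (O : Set (MulAut V)) := by
        haveI := Cfsg.pCore_normal 2 Y
        refine (le_sup_left : _ ≤ Y).trans ?_
        intro y hy
        exact Subgroup.le_normalizer_map Y.subtype ⟨⟨y, hy⟩, by
          rw [SetLike.mem_coe, Subgroup.normalizer_eq_top]; trivial, rfl⟩
      have hp : IsPGroup 2 ↥(Subgroup.zpowers a ⊔ O) :=
        (hA'.isPGroup.to_le (Subgroup.zpowers_le.2 ha)).to_sup_of_normal_right' (hcoreP Y) hn
      exact hcomm _ ((sup_le (le_sup_left.trans hle) ((Subgroup.map_subtype_le _).trans hle)).trans hX) hp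
        b (Subgroup.mem_sup_right (hBO hb)) a (Subgroup.mem_sup_left (Subgroup.mem_zpowers a))
    have hgX : g ∈ A ⊔ B := heq ▸ g₀.2
    have hBA : B.map (MulAut.conj g⁻¹).toMonoidHom = A := by
      ext y
      simp only [hBdef, Subgroup.mem_map, MulEquiv.coe_toMonoidHom, MulAut.conj_apply]
      constructor
      · rintro ⟨_, ⟨a, ha, rfl⟩, rfl⟩
        simpa [mul_assoc] using ha
      · intro hy
        exact ⟨g * y * g⁻¹, ⟨y, hy, rfl⟩, by group⟩
    set C := fixV A with hC
    set C' := fixV B with hC'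
    set F := C ⊓ C' with hF
    have hcard : Nat.card C' = Nat.card C := card_fixV_map_conj A g
    have hFfix : ∀ x ∈ A ⊔ B, ∀ f ∈ F, x f = f := by
      intro x hx f hf
      have hle : A ⊔ B ≤ stabCoset F f := sup_le
        (fun a ha => ⟨fun k hk => hk.1 a ha, by rw [hf.1 a ha, mul_inv_cancel]; exact one_mem _⟩)
        (fun a ha => ⟨fun k hk => hk.2 a ha, by rw [hf.2 a ha, mul_inv_cancel]; exact one_mem _⟩)
      exact (hle hx).1 f hf
    -- no common invariant fixed space
    have hdeg : C' = C → False := by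
      intro hCC
      have hall : ∀ x ∈ A ⊔ B, ∀ v : V, x v * v⁻¹ ∈ F := by
        intro x hx v
        have hle : A ⊔ B ≤ stabCoset F v := sup_le
          (fun a ha => ⟨fun k hk => hk.1 a ha, by
            rw [hinv, hF, hCC, inf_idem]; exact fun a' ha' => hAq a' ha' a ha v⟩)
          (fun a ha => ⟨fun k hk => hk.2 a ha, by
            rw [hinv, hF, ← hCC, inf_idem]; exact fun a' ha' => hBq a' ha' a ha v⟩)
        exact (hle hx).2
      refine hnp fun x => ⟨1, Subtype.ext (MulEquiv.ext fun v => ?_)⟩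
      rw [SubmonoidClass.coe_pow, pow_one, sq]
      show (x : MulAut V) ((x : MulAut V) v) = v
      have h1 := hFfix _ x.2 _ (hall _ x.2 v)
      rw [map_mul, map_inv] at h1
      rw [eq_mul_inv_of_mul_eq h1, inv_inv, hinv]
      rw [mul_comm _ ((x : MulAut V) v), ← mul_assoc, hexp, one_mul]
    have hmove : ∀ A' B' : Subgroup (MulAut V), A' ⊔ B' = A ⊔ B →
        ∀ k ∈ A' ⊔ B', B'.map (MulAut.conj k).toMonoidHom = A' → fixV A' ⊓ fixV B' = F →
        (∀ w ∈ fixV B', ∀ a ∈ A', a w * w ∈ F) → fixV A' = fixV B' := by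
      intro A' B' he k hk hkA hFe hno
      refine Subgroup.eq_of_le_of_card_ge ?_ (le_of_eq ?_)
      · rw [← hkA, fixV_map_conj]
        rintro _ ⟨v, hv, rfl⟩
        have hle : ∀ x ∈ A' ⊔ B', x v * v⁻¹ ∈ F := fun x hx => by
          have hle : A' ⊔ B' ≤ stabCoset F v := sup_le
            (fun a ha => ⟨fun f hf => hFfix a (he ▸ Subgroup.mem_sup_left ha) f hf, by
              rw [hinv]; exact hno v hv a ha⟩)
            (fun a ha => ⟨fun f hf => hFfix a (he ▸ Subgroup.mem_sup_right ha) f hf, by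
              rw [hv a ha, mul_inv_cancel]; exact one_mem _⟩)
          exact (hle hx).2
        have h := hle k hk
        rw [← hFe] at h
        have h2 := mul_mem h.2 hv
        rwa [inv_mul_cancel_right] at h2
      · rw [← hkA, card_fixV_map_conj]
    obtain ⟨w, hw, hwmv⟩ : ∃ w ∈ C', ∃ a ∈ A, a w * w ∉ F := by
      by_contra hno
      push_neg at hno
      exact hdeg (hmove A B rfl g⁻¹ (inv_mem hgX) hBA rfl hno).symm
    obtain ⟨u, hu, humv⟩ : ∃ u ∈ C, ∃ b ∈ B, b u * u ∉ F := by
      by_contra hno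
      push_neg at hno
      exact hdeg (hmove B A (sup_comm _ _) g (by rwa [sup_comm]) rfl (inf_comm _ _) hno)
    obtain ⟨a, ha, haw⟩ := exists_hit hexp hA hAq hgX rfl (hstep A B hA hB heq) hw hwmv u hu
    obtain ⟨b, hb, hbu⟩ := exists_hit hexp hB hBq (g := g⁻¹) (by rw [sup_comm]; exact inv_mem hgX) hBA
      (hstep B A hB hA (by rw [sup_comm]; exact heq)) hu (by rwa [inf_comm]) w hw
    rw [inf_comm] at hbu
    refine hpat a (hX (hAX ha)) b (hX (hBX hb)) F u w (fun f hf => hf.1 a ha) (fun f hf => hf.2 b hb) ?_ ?_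
      (hu a ha) (hw b hb) haw hbu
    · intro huF
      obtain ⟨b', hb', hne⟩ := humv
      exact hne (by rw [huF.2 b' hb', hexp]; exact one_mem _)
    · intro hwF
      obtain ⟨a', ha', hne⟩ := hwmv
      exact hne (by rw [hwF.1 a' ha', hexp]; exact one_mem _)

end CfsgLib.ZJ
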