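import Cfsg.Agent.ZJ.ClassTwoFactor
import Cfsg.Agent.ZJ.ClassTwoOffender

/-!
In a `2`-constrained `S₄`-free group with `O_{2'} = 1` and a Sylow `2`-subgroup of class at most two the
Thompson subgroup lies in `O₂`.
-/

set_option autoImplicit false
set_option linter.unusedSectionVars false
set_option linter.style.haveILetI false

namespace CfsgLib.ZJ

open scoped commutatorElement

variable {G : Type*} [Group G] [Finite G]

/-- The relations of the symmetric group of degree three on a four-group. -/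
theorem involves_S4_of_plane {A B u w : G} (hu : u ≠ 1) (hw : w ≠ 1) (huw : u ≠ w) (hu2 : u * u = 1)
    (hw2 : w * w = 1) (hc : u * w = w * u) (hA : A * u * A⁻¹ = u ∧ A * w * A⁻¹ = w * u)
    (hBw : B * w * B⁻¹ = w) (hBu : B * u * B⁻¹ = u * w) : Cfsg.Involves (Equiv.Perm (Fin 4)) G := by
  classical
  have hui : u⁻¹ = u := inv_eq_of_mul_eq_one_right hu2
  have hwi : w⁻¹ = w := inv_eq_of_mul_eq_one_right hw2
  have h1 : ∀ x : G, u * (u * x) = x := fun x => by rw [← mul_assoc, hu2, one_mul]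
  have h2 : ∀ x : G, w * (w * x) = x := fun x => by rw [← mul_assoc, hw2, one_mul]
  have h3 : ∀ x : G, w * (u * x) = u * (w * x) := fun x => by rw [← mul_assoc, ← hc, mul_assoc]
  let W : Subgroup G :=
    { carrier := {1, u, w, u * w}
      one_mem' := Or.inl rfl
      mul_mem' := by
        rintro x y (rfl | rfl | rfl | rfl) (rfl | rfl | rfl | rfl) <;>
          simp [mul_assoc, hu2, hw2, h1, h2, h3, ← hc]
      inv_mem' := by
        rintro x (rfl | rfl | rfl | rfl) <;> simp [hui, hwi, ← hc] }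
  have hmem : ∀ x : G, x ∈ W ↔ x = 1 ∨ x = u ∨ x = w ∨ x = u * w := fun x => Iff.rfl
  have hW : Nat.card W = 4 := by
    show Nat.card ↥({1, u, w, u * w} : Set G) = 4
    rw [Nat.card_coe_set_eq, Set.ncard_insert_of_notMem, Set.ncard_insert_of_notMem, Set.ncard_pair]
    · intro h; exact hu (mul_eq_right.1 h.symm)
    · simp only [Set.mem_insert_iff, Set.mem_singleton_iff, not_or]
      exact ⟨huw, fun h => hw (mul_eq_left.1 h.symm)⟩
    · simp only [Set.mem_insert_iff, Set.mem_singleton_iff, not_or]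
      exact ⟨hu.symm, hw.symm, fun h => huw ((eq_inv_of_mul_eq_one_left h.symm).trans hwi)⟩
  obtain ⟨hAu, hAw⟩ := hA
  have hNA : A ∈ Subgroup.normalizer (W : Set G) := by
    refine Subgroup.mem_normalizer_fintype fun x hx => ?_
    show A * x * A⁻¹ ∈ W
    have e : A * (u * w) * A⁻¹ = w := by rw [← conj_mul, hAu, hAw, ← hc, h1]
    rcases (hmem x).1 hx with rfl | rfl | rfl | rfl <;> rw [hmem] <;> simp [hAu, hAw, e, ← hc]
  have hNB : B ∈ Subgroup.normalizer (W : Set G) := by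
    refine Subgroup.mem_normalizer_fintype fun x hx => ?_
    show B * x * B⁻¹ ∈ W
    have e : B * (u * w) * B⁻¹ = u := by rw [← conj_mul, hBu, hBw, mul_assoc, hw2, mul_one]
    rcases (hmem x).1 hx with rfl | rfl | rfl | rfl <;> rw [hmem] <;> simp [hBu, hBw, e]
  set y := A * B with hy
  have hyu : y * u * y⁻¹ = w := by
    rw [hy, show A * B * u * (A * B)⁻¹ = A * (B * u * B⁻¹) * A⁻¹ by group, hBu, ← conj_mul, hAu, hAw, ← hc, h1]
  have hyw : y * w * y⁻¹ = u * w := by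
    rw [hy, show A * B * w * (A * B)⁻¹ = A * (B * w * B⁻¹) * A⁻¹ by group, hBw, hAw, ← hc]
  have hyuw : y * (u * w) * y⁻¹ = u := by
    rw [← conj_mul, hyu, hyw, hc, ← mul_assoc, hw2, one_mul]
  have hcent : ∀ z : G, z * u * z⁻¹ = u → z * w * z⁻¹ = w → z ∈ Subgroup.centralizer (W : Set G) := by
    intro z hzu hzw
    refine Subgroup.mem_centralizer_iff.2 fun x hx => ?_
    have h : z * x * z⁻¹ = x := by
      rcases (hmem x).1 hx with rfl | rfl | rfl | rfl
      · simp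
      · exact hzu
      · exact hzw
      · rw [← conj_mul, hzu, hzw]
    exact (mul_inv_eq_iff_eq_mul.1 h).symm
  refine involves_S4_of_mod_centralizer W hW (y := y) (t := A) (mul_mem hNA hNB) hNA (fun x hx h => ?_) ?_ ?_
  · have h' : y * x * y⁻¹ = x := mul_inv_eq_iff_eq_mul.2 h
    rcases (hmem x).1 hx with rfl | rfl | rfl | rfl
    · rfl
    · exact absurd (hyu.symm.trans h').symm huw
    · exact absurd (mul_eq_right.1 (hyw.symm.trans h')) hu
    · exact absurd (mul_eq_left.1 (hyuw.symm.trans h').symm) hw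
  · refine hcent _ ?_ ?_
    · rw [show y ^ 3 * u * (y ^ 3)⁻¹ = y * (y * (y * u * y⁻¹) * y⁻¹) * y⁻¹ by rw [pow_three]; group, hyu, hyw, hyuw]
    · rw [show y ^ 3 * w * (y ^ 3)⁻¹ = y * (y * (y * w * y⁻¹) * y⁻¹) * y⁻¹ by rw [pow_three]; group, hyw, hyuw, hyu]
  · have hA' : ∀ x, A * x * A⁻¹ = x → A⁻¹ * x * A = x := fun x h => by
      nth_rewrite 1 [← h]; group
    have hAu' := hA' u hAu
    have hAw' : A⁻¹ * w * A = w * u := by
      calc A⁻¹ * w * A = A⁻¹ * (w * u * u) * A := by rw [mul_assoc w u u, hu2, mul_one]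
        _ = A⁻¹ * (A * w * A⁻¹) * A * (A⁻¹ * u * A) := by rw [hAw]; group
        _ = w * u := by rw [hAu']; group
    refine hcent _ ?_ ?_
    · rw [show A * y * A⁻¹ * y * u * (A * y * A⁻¹ * y)⁻¹ = A * (y * (A⁻¹ * (y * u * y⁻¹) * A) * y⁻¹) * A⁻¹ by group,
        hyu, hAw', ← hc, hyuw, hAu]
    · rw [show A * y * A⁻¹ * y * w * (A * y * A⁻¹ * y)⁻¹ = A * (y * (A⁻¹ * (y * w * y⁻¹) * A) * y⁻¹) * A⁻¹ by group,
        hyw]
      have e : A⁻¹ * (u * w) * A = w := by
        calc A⁻¹ * (u * w) * A = (A⁻¹ * u * A) * (A⁻¹ * w * A) := by group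
          _ = w := by rw [hAu', hAw', ← hc, h1]
      rw [e, hyw, ← conj_mul, hAu, hAw, ← hc, h1]

/-- The Thompson subgroup lies in `O₂(G)`. -/
theorem J_le_pCore_of_constrained (hc : Subgroup.centralizer (Cfsg.pCore 2 G : Set G) ≤ Cfsg.pCore 2 G)
    (hS4 : ¬ Cfsg.Involves (Equiv.Perm (Fin 4)) G) (S : Sylow 2 G)
    (hcl : ∀ a ∈ (S : Subgroup G), ∀ b ∈ (S : Subgroup G), ∀ c ∈ (S : Subgroup G),
      c * ⁅a, b⁆ = ⁅a, b⁆ * c) :
    J 2 true (S : Subgroup G) ≤ Cfsg.pCore 2 G := by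
  classical
  haveI : Fact (Nat.Prime 2) := ⟨Nat.prime_two⟩
  set Q := Cfsg.pCore 2 G with hQdef
  haveI hQn : Q.Normal := Cfsg.pCore_normal 2 G
  have hQp : IsPGroup 2 Q := PCore.isPGroup_pCore 2 G
  have hQS : Q ≤ (S : Subgroup G) := PCore.pCore_le_sylow S
  -- the centre of `Q` and its involutions
  set Z := Q ⊓ Subgroup.centralizer (Q : Set G) with hZdef
  have hZab : ∀ a ∈ Z, ∀ b ∈ Z, a * b = b * a := fun a ha b hb => Subgroup.mem_centralizer_iff.1 hb.2 a ha.1
  have hZn : ∀ g : G, ∀ a ∈ Z, g * a * g⁻¹ ∈ Z := fun g a ha =>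
    ⟨hQn.conj_mem a ha.1 g, (inferInstance : (Subgroup.centralizer (Q : Set G)).Normal).conj_mem a ha.2 g⟩
  let V : Subgroup G :=
    { carrier := {a | a ∈ Z ∧ a ^ 2 = 1}
      one_mem' := ⟨Z.one_mem, one_pow 2⟩
      mul_mem' := fun {a b} ha hb => ⟨Z.mul_mem ha.1 hb.1, by
        rw [(show Commute a b from hZab a ha.1 b hb.1).mul_pow, ha.2, hb.2, one_mul]⟩
      inv_mem' := fun {a} ha => ⟨Z.inv_mem ha.1, by rw [inv_pow, ha.2, inv_one]⟩ }
  haveI hVn : V.Normal := ⟨fun a ha g => ⟨hZn g a ha.1, by rw [conj_pow, ha.2]; group⟩⟩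
  have hVQ : V ≤ Q := fun a ha => ha.1.1
  have hVab : ∀ a ∈ V, ∀ b ∈ V, a * b = b * a := fun a ha b hb => hZab a ha.1 b hb.1
  have hQV : ∀ q ∈ Q, ∀ v ∈ V, q * v = v * q := fun q hq v hv => Subgroup.mem_centralizer_iff.1 hv.1.2 q hq
  -- the kernel of the action on `Q/Z`
  let N : Subgroup G :=
    { carrier := {g | ∀ q ∈ Q, q⁻¹ * (g * q * g⁻¹) ∈ Z}
      one_mem' := fun q _ => by simp
      mul_mem' := fun {a b} ha hb q hq => by
        have h2 := ha _ (hQn.conj_mem q hq b)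
        have e : q⁻¹ * (a * b * q * (a * b)⁻¹) =
            (q⁻¹ * (b * q * b⁻¹)) * ((b * q * b⁻¹)⁻¹ * (a * (b * q * b⁻¹) * a⁻¹)) := by group
        rw [e]
        exact Z.mul_mem (hb q hq) h2
      inv_mem' := fun {a} ha q hq => by
        have h2 := Z.inv_mem (ha _ (hQn.conj_mem q hq a⁻¹))
        simpa [mul_assoc] using h2 }
  haveI hNn : N.Normal := ⟨fun n hn g q hq => by
    have h2 := hZn g _ (hn _ (hQn.conj_mem q hq g⁻¹))
    simpa [mul_assoc] using h2⟩
  have hSN : (S : Subgroup G) ≤ N := fun s hs q hq => by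
    refine ⟨Q.mul_mem (Q.inv_mem hq) (hQn.conj_mem q hq s), Subgroup.mem_centralizer_iff.2 fun r hr => ?_⟩
    have h1 := hcl q⁻¹ ((S : Subgroup G).inv_mem (hQS hq)) s hs r (hQS hr)
    simpa [commutatorElement_def, mul_assoc] using h1
  have hQN : Q ≤ N := hQS.trans hSN
  -- the centralizer of `V` in `N`
  have hNV : N ⊓ Subgroup.centralizer (V : Set G) ≤ Q := by
    refine PCore.le_pCore inferInstance (fun x => ?_)
    obtain ⟨n, hn⟩ : ∃ n, orderOf (x : G) = n := ⟨_, rfl⟩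
    obtain ⟨k, m, hm, hkm⟩ := Nat.exists_eq_pow_mul_and_not_dvd
      (n := orderOf (x : G)) (orderOf_pos _).ne' 2 (by norm_num)
    refine ⟨k, Subtype.ext ?_⟩
    set g := (x : G) ^ 2 ^ k with hgdef
    show g = 1
    have hgodd : Odd (orderOf g) := by
      rw [hgdef, orderOf_pow' _ (by positivity), hkm, Nat.gcd_eq_right (dvd_mul_right _ _),
        Nat.mul_div_cancel_left _ (by positivity)]
      exact Nat.odd_iff.2 (Nat.two_dvd_ne_zero.1 hm)
    have hgX := (N ⊓ Subgroup.centralizer (V : Set G)).pow_mem x.2 (2 ^ k)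
    rw [← hgdef] at hgX
    have hgZ : ∀ a ∈ Z, g * a * g⁻¹ = a := by
      intro a ha
      obtain ⟨j, hj⟩ := hQp ⟨a, ha.1⟩
      refine fix_of_fix_involutions hgodd hZab (hZn g) (fun b hb hb2 => ?_) j a ha (congrArg Subtype.val hj)
      rw [← Subgroup.mem_centralizer_iff.1 hgX.2 b ⟨hb, hb2⟩, mul_inv_cancel_right]
    have hgQ : g ∈ Subgroup.centralizer (Q : Set G) := Subgroup.mem_centralizer_iff.2 fun q hq => by
      set u := q⁻¹ * (g * q * g⁻¹) with hu
      have huZ : u ∈ Z := hgX.1 q hq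
      have key : ∀ i : ℕ, g ^ i * q * (g ^ i)⁻¹ = q * u ^ i := by
        intro i
        induction i with
        | zero => simp
        | succ i ihi =>
          calc g ^ (i + 1) * q * (g ^ (i + 1))⁻¹ = g * (g ^ i * q * (g ^ i)⁻¹) * g⁻¹ := by rw [pow_succ']; group
            _ = (g * q * g⁻¹) * (g * u ^ i * g⁻¹) := by rw [ihi]; group
            _ = q * u * u ^ i := by rw [hgZ _ (Z.pow_mem huZ i), hu]; group
            _ = q * u ^ (i + 1) := by rw [pow_succ', mul_assoc]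
      have h3 := key (orderOf g)
      rw [pow_orderOf_eq_one, one_mul, inv_one, mul_one] at h3
      have h4 : u ^ orderOf g = 1 := mul_eq_left.1 h3.symm
      obtain ⟨j, hj⟩ := hQp ⟨u, huZ.1⟩
      have hj' : u ^ 2 ^ j = 1 := congrArg Subtype.val hj
      have h5 : u = 1 := orderOf_eq_one_iff.1 (Nat.eq_one_of_dvd_coprimes
        ((Nat.coprime_two_right.2 hgodd).pow_right j) (orderOf_dvd_of_pow_eq_one h4) (orderOf_dvd_of_pow_eq_one hj'))
      rw [hu, inv_mul_eq_one] at h5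
      exact (eq_mul_inv_iff_mul_eq.1 h5)
    obtain ⟨j, hj⟩ := hQp ⟨g, hc hgQ⟩
    have hj' : g ^ 2 ^ j = 1 := congrArg Subtype.val hj
    exact orderOf_eq_one_iff.1 (Nat.eq_one_of_dvd_coprimes
      ((Nat.coprime_two_right.2 hgodd).pow_right j) dvd_rfl (orderOf_dvd_of_pow_eq_one hj'))
  refine sSup_le fun A hA => ?_
  by_contra hAQ
  have hAN : A ≤ N := hA.1.trans hSN
  -- the semidirect product with the image of `N`
  letI : CommGroup V :=
    { (inferInstance : Group V) with mul_comm := fun a b => Subtype.ext (hVab a a.2 b b.2) }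
  let φ : ↥N →* MulAut V := (MulAut.conjNormal (H := V)).comp N.subtype
  have hφ : ∀ (n : N) (v : V), ((φ n v : V) : G) = n * v * (n : G)⁻¹ := fun n v =>
    MulAut.conjNormal_apply (n : G) v
  have hker : ∀ n : N, φ n = 1 ↔ (n : G) ∈ Q := fun n => by
    constructor
    · intro h
      refine hNV ⟨n.2, Subgroup.mem_centralizer_iff.2 fun v hv => ?_⟩
      have h2 := hφ n ⟨v, hv⟩
      rw [h] at h2
      exact (eq_mul_inv_iff_mul_eq.1 h2)
    · intro h
      refine MulEquiv.ext fun v => Subtype.ext ?_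
      rw [hφ, hQV _ h v v.2, mul_inv_cancel_right]
      rfl
  set H := φ.range with hH
  haveI : Finite (MulAut V) := Finite.of_injective (fun e => (e : V → V)) DFunLike.coe_injective
  have hOH : Cfsg.pCore 2 ↥H = ⊥ := by
    set M := (Cfsg.pCore 2 ↥H).comap φ.rangeRestrict with hM
    haveI : M.Normal := (Cfsg.pCore_normal 2 _).comap _
    have hMp : IsPGroup 2 M := fun m => by
      obtain ⟨i, hi⟩ := PCore.isPGroup_pCore 2 ↥H ⟨_, m.2⟩
      have h1 : φ ((m : N) ^ 2 ^ i) = 1 := by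
        rw [map_pow]; exact congrArg Subtype.val (congrArg Subtype.val hi)
      obtain ⟨j, hj⟩ := hQp ⟨_, (hker _).1 h1⟩
      refine ⟨i + j, Subtype.ext (Subtype.ext ?_)⟩
      rw [pow_add, pow_mul]
      simpa using congrArg Subtype.val hj
    have hMQ : ∀ m ∈ M, ((m : N) : G) ∈ Q := fun m hm => by
      have h := Subgroup.mem_map_of_mem N.subtype (PCore.le_pCore (N := M) inferInstance hMp hm)
      rw [PCore.map_pCore_normal] at h
      exact h.1
    rw [eq_bot_iff]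
    intro h hh
    obtain ⟨n, rfl⟩ := φ.rangeRestrict_surjective h
    exact Subgroup.mem_bot.2 (Subtype.ext ((hker n).2 (hMQ n hh)))
  have hclP : ∀ P : Subgroup G, IsPGroup 2 P → ∀ a ∈ P, ∀ b ∈ P, ∀ c ∈ P, c * ⁅a, b⁆ = ⁅a, b⁆ * c := by
    intro P hP a ha b hb c hc
    obtain ⟨T, hT⟩ := hP.exists_le_sylow
    obtain ⟨g, hg⟩ := MulAction.exists_smul_eq G S T
    have hmem : ∀ x ∈ P, g⁻¹ * x * g ∈ (S : Subgroup G) := fun x hx =>
      CfsgLib.Transfer.mem_smul_sylow_iff.1 (hg.symm ▸ hT hx)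
    have h := hcl _ (hmem a ha) _ (hmem b hb) _ (hmem c hc)
    simp only [commutatorElement_def] at h ⊢
    calc c * (a * b * a⁻¹ * b⁻¹)
        = g * (g⁻¹ * c * g * (g⁻¹ * a * g * (g⁻¹ * b * g) * (g⁻¹ * a * g)⁻¹ * (g⁻¹ * b * g)⁻¹)) * g⁻¹ := by group
      _ = a * b * a⁻¹ * b⁻¹ * c := by rw [h]; group
  have hexp : ∀ v : V, v * v = 1 := fun v => Subtype.ext (by rw [Subgroup.coe_mul, ← sq]; exact v.2.2)
  have hquad : ∀ X : Subgroup (MulAut V), X ≤ H → IsPGroup 2 X →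
      ∀ a ∈ X, ∀ b ∈ X, ∀ v : V, a (b v * v) = b v * v := by
    intro X hX hXp a ha b hb v
    obtain ⟨a', rfl⟩ := hX ha
    obtain ⟨b', rfl⟩ := hX hb
    set P := (X.comap φ).map N.subtype with hP
    have hPp : IsPGroup 2 P := by
      refine IsPGroup.map (fun x => ?_) _
      obtain ⟨i, hi⟩ := hXp ⟨_, x.2⟩
      have h1 : φ ((x : N) ^ 2 ^ i) = 1 := by rw [map_pow]; exact congrArg Subtype.val hi
      obtain ⟨j, hj⟩ := hQp ⟨_, (hker _).1 h1⟩
      refine ⟨i + j, Subtype.ext (Subtype.ext ?_)⟩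
      rw [pow_add, pow_mul]
      simpa using congrArg Subtype.val hj
    have hvP : (v : G) ∈ P := ⟨⟨(v : G), hQN (hVQ v.2)⟩, by
      show φ _ ∈ X
      rw [(hker _).2 (hVQ v.2)]; exact one_mem _, rfl⟩
    have h := hclP P hPp b' ⟨b', hb, rfl⟩ v hvP a' ⟨a', ha, rfl⟩
    refine Subtype.ext ?_
    rw [hφ, Subgroup.coe_mul, hφ]
    have e : (b' : G) * v * (b' : G)⁻¹ * (v : G) = ⁅(b' : G), (v : G)⁆ := by
      rw [commutatorElement_def, inv_eq_of_mul_eq_one_right (show (v : G) * v = 1 by rw [← sq]; exact v.2.2)]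
    rw [e, h, mul_inv_cancel_right]
  have hpat : ∀ a ∈ H, ∀ b ∈ H, ∀ (F : Subgroup V) (u w : V), (∀ f ∈ F, a f = f) → (∀ f ∈ F, b f = f) →
      u ∉ F → w ∉ F → a u = u → b w = w → a w * w * u ∈ F → b u * u * w ∈ F → False := by
    rintro _ ⟨a', rfl⟩ _ ⟨b', rfl⟩ F u w haF hbF hu hw hau hbw haw hbu
    set F' := F.map V.subtype with hF'
    set L₀ := Subgroup.centralizer (F' : Set G) with hL₀
    have hVL : ∀ v : V, (v : G) ∈ L₀ := fun v => Subgroup.mem_centralizer_iff.2 (by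
      rintro _ ⟨f, _, rfl⟩; exact hVab f f.2 v v.2)
    have hnL : ∀ n : N, (∀ f ∈ F, φ n f = f) → (n : G) ∈ L₀ := fun n hn =>
      Subgroup.mem_centralizer_iff.2 (by
        rintro _ ⟨f, hf, rfl⟩
        have h := hφ n f
        rw [hn f hf] at h
        exact (eq_mul_inv_iff_mul_eq.1 h))
    haveI : (F'.subgroupOf L₀).Normal := ⟨fun f hf x => by
      have h := Subgroup.mem_centralizer_iff.1 x.2 (f : G) hf
      show (x : G) * (f : G) * (x : G)⁻¹ ∈ F'
      rw [← h, mul_inv_cancel_right]; exact hf⟩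
    let π := QuotientGroup.mk' (F'.subgroupOf L₀)
    let π' : V → ↥L₀ ⧸ F'.subgroupOf L₀ := fun v => π ⟨(v : G), hVL v⟩
    have hmul : ∀ v v' : V, π' (v * v') = π' v * π' v' := fun v v' => by
      show π _ = _
      rw [← map_mul]; rfl
    have hone : ∀ v : V, π' v = 1 ↔ v ∈ F := fun v => by
      refine (QuotientGroup.eq_one_iff _).trans ?_
      show (v : G) ∈ F.map V.subtype ↔ _
      exact ⟨fun ⟨f, hf, he⟩ => Subtype.ext he ▸ hf, fun h => ⟨v, h, rfl⟩⟩
    have hconj : ∀ (n : N) (hn : (n : G) ∈ L₀) (v : V),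
        π ⟨n, hn⟩ * π' v * (π ⟨n, hn⟩)⁻¹ = π' (φ n v) := fun n hn v => by
      show π _ * π _ * (π _)⁻¹ = π _
      rw [← map_inv, ← map_mul, ← map_mul]
      exact congrArg π (Subtype.ext (hφ n v).symm)
    have hnA := hnL a' haF
    have hnB := hnL b' hbF
    have heq : ∀ x y : V, x * y ∈ F → π' x = π' y := fun x y h => by
      have h1 := (hone _).2 h
      rw [hmul] at h1
      have h2 := hexp y
      calc π' x = π' x * (π' y * π' y) := by rw [← hmul, h2, (hone 1).2 F.one_mem, mul_one]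
        _ = π' y := by rw [← mul_assoc, h1, one_mul]
    refine hS4 (involves_subgroup L₀ (involves_quotient (F'.subgroupOf L₀) (involves_S4_of_plane
      (A := π ⟨a', hnA⟩) (B := π ⟨b', hnB⟩) (u := π' u) (w := π' w) ?_ ?_ ?_ ?_ ?_ ?_ ?_ ?_ ?_)))
    · exact fun h => hu ((hone u).1 h)
    · exact fun h => hw ((hone w).1 h)
    · intro h
      refine hw ((hone w).1 ?_)
      have h1 : u * w ∈ F := (hone _).1 (by rw [hmul, h, ← hmul, hexp, (hone 1).2 F.one_mem])
      have h2 := haF _ h1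
      rw [map_mul, hau] at h2
      have h3 : φ a' w = w := mul_left_cancel h2
      rw [h3, hexp, one_mul] at haw
      exact absurd haw hu
    · rw [← hmul, hexp, (hone 1).2 F.one_mem]
    · rw [← hmul, hexp, (hone 1).2 F.one_mem]
    · rw [← hmul, ← hmul, mul_comm]
    · rw [hconj, hau]; exact ⟨rfl, by rw [hconj, ← hmul]; exact heq _ _ (by rwa [← mul_assoc])⟩
    · rw [hconj, hbw]
    · rw [hconj, ← hmul]; exact heq _ _ (by rw [mul_comm u w] ; rwa [mul_comm w u, ← mul_assoc])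
  set A₀ := (A.subgroupOf N).map φ with hA₀
  have hA₀H : A₀ ≤ H := by rintro _ ⟨a, _, rfl⟩; exact ⟨a, rfl⟩
  have hA₀p : IsPGroup 2 A₀ := ((S.isPGroup'.to_le hA.1).comap_of_injective N.subtype N.subtype_injective).map φ
  have hA₀ne : A₀ ≠ ⊥ := by
    intro e
    refine hAQ fun a ha => (hker ⟨a, hAN ha⟩).1 ?_
    have h : φ ⟨a, hAN ha⟩ ∈ A₀ := ⟨⟨a, hAN ha⟩, ha, rfl⟩
    rwa [e, Subgroup.mem_bot] at h
  have hA₀le : Nat.card V ≤ Nat.card A₀ * Nat.card (fixV A₀) := by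
    have hCV : Nat.card ↥(A ⊓ V : Subgroup G) ≤ Nat.card (fixV A₀) := by
      refine Nat.card_le_card_of_injective (fun v => ⟨⟨(v : G), v.2.2⟩, ?_⟩) ?_
      · rintro _ ⟨a, ha, rfl⟩
        refine Subtype.ext ?_
        rw [hφ]
        show (a : G) * (v : G) * (a : G)⁻¹ = v
        rw [good_commute hA.2.1 (show (a : G) ∈ A from ha) v.2.1, mul_inv_cancel_right]
      · intro x y hxy
        exact Subtype.ext (congrArg (fun z => ((z.1 : V) : G)) hxy)
    have hA'c : Nat.card A₀ * Nat.card ↥(A ⊓ Q : Subgroup G) = Nat.card A := by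
      rw [hA₀]
      have h1 := Subgroup.card_mul_index ((φ.ker).subgroupOf (A.subgroupOf N))
      rw [← Subgroup.relIndex, Subgroup.relIndex_ker] at h1
      rw [← Nat.card_congr (Subgroup.subgroupOfEquivOfLe hAN).toEquiv, ← h1, mul_comm]
      congr 1
      refine Nat.card_congr
        { toFun := fun a => ⟨⟨⟨(a : G), hAN a.2.1⟩, a.2.1⟩, ?_⟩
          invFun := fun a => ⟨((a : ↥(A.subgroupOf N)) : N), (a : ↥(A.subgroupOf N)).2, ?_⟩
          left_inv := fun a => rfl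
          right_inv := fun a => rfl }
      · exact MonoidHom.mem_ker.2 ((hker ⟨(a : G), hAN a.2.1⟩).2 a.2.2)
      · exact (hker _).1 (MonoidHom.mem_ker.1 a.2)
    have hB : Good 2 true ((A ⊓ Q) ⊔ V) := by
      refine good_sup (good_mono inf_le_left hA.2.1)
        ⟨⟨⟨fun a b => Subtype.ext (hVab a a.2 b b.2)⟩⟩, fun _ v hv => hv.2⟩ fun v hv =>
        Subgroup.mem_centralizer_iff.2 fun a ha => hQV a ha.2 v hv
    have h1 := hA.2.2 _ (sup_le (inf_le_left.trans hA.1) (hVQ.trans hQS)) hB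
    have h2 := card_sup_mul_card_inf_of_le_normalizer (A := A ⊓ Q) (B := V)
      (le_top.trans_eq (Subgroup.normalizer_eq_top _).symm)
    rw [inf_assoc, inf_eq_right.2 hVQ] at h2
    refine le_trans ?_ (Nat.mul_le_mul_left _ hCV)
    refine Nat.le_of_mul_le_mul_left ?_ (Nat.card_pos (α := ↥(A ⊓ Q : Subgroup G)))
    calc Nat.card ↥(A ⊓ Q : Subgroup G) * Nat.card V
        = Nat.card ↥((A ⊓ Q) ⊔ V : Subgroup G) * Nat.card ↥(A ⊓ V : Subgroup G) := h2.symm
      _ ≤ Nat.card A * Nat.card ↥(A ⊓ V : Subgroup G) := Nat.mul_le_mul_right _ h1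
      _ = _ := by rw [← hA'c]; ring
  -- a minimal offender
  obtain ⟨B, ⟨hBA, hBne, hBle⟩, hBmin⟩ := Set.Finite.exists_minimalFor id
    {B : Subgroup (MulAut V) | B ≤ A₀ ∧ B ≠ ⊥ ∧ Nat.card V ≤ Nat.card B * Nat.card (fixV B)}
    (Set.toFinite _) ⟨A₀, le_rfl, hA₀ne, hA₀le⟩
  have hBoff : MinOffender B := ⟨hBne, hA₀p.to_le hBA, hBle, fun C hC hCB =>
    not_le.1 fun hle => hCB.not_ge (hBmin ⟨hCB.le.trans hBA, hC, hle⟩ hCB.le)⟩
  have h := minOffender_le_pCore hexp H hquad hpat H le_rfl B hBoff (hBA.trans hA₀H)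
  rw [hOH, le_bot_iff, Subgroup.subgroupOf_eq_bot, disjoint_iff, inf_eq_left.2 (hBA.trans hA₀H)] at h
  exact hBne h

end CfsgLib.ZJ
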