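import Cfsg.Agent.ZJ.Glauberman
import Cfsg.Agent.ZJCenter.Normal
import Cfsg.Agent.BenderUnique.Basic
import Cfsg.Agent.Transfer.Residual
import Cfsg.Agent.HallHigmanB.TwoConjugates
import Cfsg.Agent.PReduced.Basic

/-!
A self-centralizing characteristic subgroup of a p-group deciding normal p-complements, p odd.
-/

set_option autoImplicit false
set_option linter.style.haveILetI false

namespace CfsgLib.ZJ.SelfCentralizing

open CfsgLib.ZJCenter (Z)
open scoped commutatorElement

universe u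

variable {p : ℕ} [hp : Fact p.Prime]

/-- A central extension by a p-group of a p-nilpotent group is p-nilpotent. -/
theorem hasNormalPComplement_of_central {C : Type u} [Group C] [Finite C] (Z₀ : Subgroup C) [Z₀.Normal]
    (hZ : IsPGroup p Z₀) (hc : Z₀ ≤ Subgroup.center C) (h : Cfsg.HasNormalPComplement p (C ⧸ Z₀)) :
    Cfsg.HasNormalPComplement p C := by
  haveI : (Cfsg.pResidual p (C ⧸ Z₀)).Normal := Transfer.pResidual_normal
  set M := (Cfsg.pResidual p (C ⧸ Z₀)).comap (QuotientGroup.mk' Z₀) with hM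
  haveI : M.Normal := inferInstanceAs ((Cfsg.pResidual p (C ⧸ Z₀)).comap (QuotientGroup.mk' Z₀)).Normal
  have hZM : Z₀ ≤ M := fun z hz => by
    rw [hM, Subgroup.mem_comap, QuotientGroup.mk'_apply, (QuotientGroup.eq_one_iff z).2 hz]
    exact one_mem _
  have hR := Transfer.hasNormalPComplement_iff.1 h
  have hidx : (Z₀.subgroupOf M).index = Nat.card (Cfsg.pResidual p (C ⧸ Z₀)) := by
    show Z₀.relIndex M = _
    have h1 := Subgroup.relIndex_comap (⊥ : Subgroup (C ⧸ Z₀)) (QuotientGroup.mk' Z₀) M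
    rw [MonoidHom.comap_bot, QuotientGroup.ker_mk'] at h1
    rw [h1, hM, Subgroup.map_comap_eq_self_of_surjective (QuotientGroup.mk'_surjective Z₀),
      Subgroup.relIndex_bot_left]
  obtain ⟨i, hi⟩ := IsPGroup.iff_card.1 hZ
  have hcardZ : Nat.card (Z₀.subgroupOf M) = p ^ i := by
    rw [Nat.card_congr (Subgroup.subgroupOfEquivOfLe hZM).toEquiv, hi]
  obtain ⟨H, hH⟩ := Subgroup.exists_right_complement'_of_coprime (N := Z₀.subgroupOf M) (by
    rw [hcardZ, hidx]
    exact (hp.out.coprime_iff_not_dvd.2 hR).pow_left i)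
  have hHcard : Nat.card H = Nat.card (Cfsg.pResidual p (C ⧸ Z₀)) := by rw [← hidx, hH.symm.index_eq_card]
  haveI hHn : H.Normal := ⟨fun x hx g => by
    obtain ⟨⟨z, y⟩, hzy⟩ := hH.2 g
    subst hzy
    have hzc : ∀ w : M, (z : M) * w = w * (z : M) := fun w =>
      Subtype.ext (Subgroup.mem_center_iff.1 (hc z.2) w).symm
    have h1 : ((z : M) * (y : M)) * x * ((z : M) * (y : M))⁻¹ = (y : M) * x * (y : M)⁻¹ := by
      rw [mul_inv_rev, mul_assoc (z : M), mul_assoc (z : M), ← mul_assoc ((y : M) * x), hzc,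
        inv_mul_cancel_right]
    show ((z : M) * (y : M)) * x * ((z : M) * (y : M))⁻¹ ∈ H
    rw [h1]
    exact H.mul_mem (H.mul_mem y.2 hx) (H.inv_mem y.2)⟩
  have hMc : Cfsg.HasNormalPComplement p M := Transfer.hasNormalPComplement_of_normal H (hHcard ▸ hR) <| by
    refine IsPGroup.of_card (n := i) ?_
    rw [← Subgroup.index_eq_card, hH.index_eq_card, hcardZ]
  haveI : (Cfsg.pResidual p M).Characteristic := Transfer.pResidual_characteristic
  refine Transfer.hasNormalPComplement_of_normal ((Cfsg.pResidual p M).map M.subtype)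
    (by rw [Subgroup.card_map_of_injective M.subtype_injective]; exact Transfer.hasNormalPComplement_iff.1 hMc) ?_
  obtain ⟨j, hj⟩ := Transfer.index_pResidual (p := p) (G := M)
  obtain ⟨k, hk⟩ := Transfer.index_pResidual (p := p) (G := C ⧸ Z₀)
  refine IsPGroup.of_card (n := j + k) ?_
  rw [← Subgroup.index_eq_card, Subgroup.index_map_subtype, hj, hM,
    Subgroup.index_comap_of_surjective _ (QuotientGroup.mk'_surjective Z₀), hk, pow_add]

variable (p)

/-- The condition on a subgroup of `S`. -/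
def Decides {S : Type u} [Group S] (K : Subgroup S) : Prop :=
  K.Characteristic ∧ Subgroup.centralizer (K : Set S) ≤ K ∧
    ∀ (G : Type u) [Group G] [Finite G] (f : S →* G), Function.Injective f →
      ∀ P : Sylow p G, f.range = (P : Subgroup G) →
        (∀ g ∈ Subgroup.normalizer ((K.map f : Subgroup G) : Set G), (orderOf g).Coprime p →
          g ∈ Subgroup.centralizer ((K.map f : Subgroup G) : Set G)) → Cfsg.HasNormalPComplement p G

variable {p}

theorem exists_decides (hp2 : p ≠ 2) (n : ℕ) : ∀ (S : Type u) [Group S] [Finite S], Nat.card S = n →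
    IsPGroup p S → ∃ K : Subgroup S, Decides p K := by
  induction n using Nat.strong_induction_on with
  | _ n ih =>
  intro S _ _ hn hS
  by_cases hS1 : (⊤ : Subgroup S) = ⊥
  · refine ⟨⊤, inferInstance, le_top, fun G _ _ f _ P hP _ => ?_⟩
    have hPbot : (P : Subgroup G) = ⊥ := by
      rw [← hP, MonoidHom.range_eq_map, hS1, Subgroup.map_bot]
    refine Transfer.hasNormalPComplement_of_normal ⊤ ?_ ?_
    · intro hd
      exact P.ne_bot_of_dvd_card (by rwa [Subgroup.card_top] at hd) hPbot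
    · refine IsPGroup.of_card (n := 0) ?_
      rw [← Subgroup.index_eq_card, Subgroup.index_top, pow_zero]
  set Zt := Z p (⊤ : Subgroup S) with hZt
  set J := Subgroup.centralizer (Zt : Set S) with hJ
  have hZJ : Zt ≤ J := fun x hx => Subgroup.mem_centralizer_iff.2 fun y hy => ZJCenter.Z_comm hy hx
  have hJJ : ZJ.J p true (⊤ : Subgroup S) ≤ J := fun x hx =>
    Subgroup.mem_centralizer_iff.2 fun y hy => (Subgroup.mem_centralizer_iff.1 hy.2 x hx).symm
  set Z₀ := Zt.subgroupOf J with hZ₀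
  have hZ0top : Z₀ = Z p (⊤ : Subgroup J) := by
    have h1 : Z p J = Zt := by rw [hZt, Z, Z, ZJ.J_eq_of_le hJJ le_top]
    have h2 := ZJCenter.Z_map (p := p) J.subtype (S := (⊤ : Subgroup J))
      fun x _ hx => J.subtype_injective (hx.trans (map_one J.subtype).symm)
    rw [← MonoidHom.range_eq_map, Subgroup.range_subtype, h1] at h2
    rw [hZ₀, h2, Subgroup.subgroupOf, Subgroup.comap_map_eq_self_of_injective J.subtype_injective]
  have hZ0inv : ∀ ψ : J ≃* J, Z₀.map ψ.toMonoidHom = Z₀ := fun ψ => by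
    rw [hZ0top, ← ZJCenter.Z_map ψ.toMonoidHom fun x _ hx => ψ.injective (hx.trans (map_one ψ).symm),
      Subgroup.map_top_of_surjective _ ψ.surjective]
  haveI hZ0n : Z₀.Normal := by
    refine ⟨fun x hx g => ?_⟩
    have h1 := hZ0inv (MulAut.conj g)
    exact h1.le ⟨x, hx, rfl⟩
  have hZtne : Zt ≠ ⊥ := ZJCenter.Z_ne_bot (hS.to_subgroup ⊤) hS1
  have hlt : Nat.card (J ⧸ Z₀) < n := by
    have h1 : 1 < Nat.card Z₀ := by
      rw [Nat.card_congr (Subgroup.subgroupOfEquivOfLe hZJ).toEquiv]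
      exact (Subgroup.one_lt_card_iff_ne_bot _).2 hZtne
    have h2 := Subgroup.card_eq_card_quotient_mul_card_subgroup Z₀
    have h3 : Nat.card J ≤ n := hn ▸ Subgroup.card_le_card_group J
    have h4 : 0 < Nat.card (J ⧸ Z₀) := Nat.card_pos
    nlinarith
  obtain ⟨Kb, hKbc, hKbC, hKbD⟩ := ih _ hlt (J ⧸ Z₀) rfl ((hS.to_subgroup J).to_quotient Z₀)
  set K₁ := Kb.comap (QuotientGroup.mk' Z₀) with hK₁
  set K := K₁.map J.subtype with hK
  have hKJ : K ≤ J := Subgroup.map_subtype_le _
  have hZK : Zt ≤ K := fun x hx => by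
    refine ⟨⟨x, hZJ hx⟩, ?_, rfl⟩
    show QuotientGroup.mk' Z₀ ⟨x, hZJ hx⟩ ∈ Kb
    rw [QuotientGroup.mk'_apply, (QuotientGroup.eq_one_iff _).2 (show (⟨x, hZJ hx⟩ : J) ∈ Z₀ from hx)]
    exact one_mem _
  have hK1inv : ∀ ψ : J ≃* J, ∀ x ∈ K₁, ψ x ∈ K₁ := by
    intro ψ x hx
    let φ := QuotientGroup.congr Z₀ Z₀ ψ (hZ0inv ψ)
    have h1 : Kb.map φ.toMonoidHom = Kb := Subgroup.characteristic_iff_map_eq.1 hKbc φ
    exact h1.le ⟨QuotientGroup.mk' Z₀ x, hx, rfl⟩
  have hCK : Subgroup.centralizer (K : Set S) ≤ K := by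
    intro c hc
    have hcJ : c ∈ J := Subgroup.centralizer_le hZK hc
    refine ⟨⟨c, hcJ⟩, hKbC (Subgroup.mem_centralizer_iff.2 fun y hy => ?_), rfl⟩
    obtain ⟨y, rfl⟩ := QuotientGroup.mk'_surjective Z₀ y
    rw [← map_mul, ← map_mul]
    exact congrArg _ (Subtype.ext (Subgroup.mem_centralizer_iff.1 hc _ ⟨y, hy, rfl⟩))
  have hKchar : K.Characteristic := by
    refine Subgroup.characteristic_iff_map_le.2 fun φ => ?_
    rintro _ ⟨_, ⟨x, hx, rfl⟩, rfl⟩
    have hJφ : ∀ (φ : S ≃* S) (x : S), x ∈ J → φ x ∈ J := by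
      intro φ x hx
      have hZφ : Zt.map φ.toMonoidHom = Zt := by
        rw [hZt, ← ZJCenter.Z_map φ.toMonoidHom fun x _ hx => φ.injective (hx.trans (map_one φ).symm),
          Subgroup.map_top_of_surjective _ φ.surjective]
      refine Subgroup.mem_centralizer_iff.2 fun y hy => ?_
      obtain ⟨w, hw, rfl⟩ := hZφ.ge hy
      show φ w * φ x = φ x * φ w
      rw [← map_mul, Subgroup.mem_centralizer_iff.1 hx w hw, map_mul]
    let ψ : J ≃* J :=
      { toFun := fun x => ⟨φ (x : S), hJφ φ x x.2⟩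
        invFun := fun x => ⟨φ.symm (x : S), hJφ φ.symm x x.2⟩
        left_inv := fun x => Subtype.ext (φ.symm_apply_apply x)
        right_inv := fun x => Subtype.ext (φ.apply_symm_apply x)
        map_mul' := fun x y => Subtype.ext (map_mul φ (x : S) (y : S)) }
    exact ⟨ψ x, hK1inv ψ x hx, rfl⟩
  refine ⟨K, hKchar, hCK, fun G _ _ f hf P hP hyp => ?_⟩
  have hfP : (⊤ : Subgroup S).map f = (P : Subgroup G) := by rw [← MonoidHom.range_eq_map, hP]
  have hf1 : ∀ x ∈ (⊤ : Subgroup S), f x = 1 → x = 1 := fun x _ hx => hf (hx.trans (map_one f).symm)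
  set Zg := Zt.map f with hZg
  have hZgP : Cfsg.centerThompsonOf p (P : Subgroup G) = Zg := by
    rw [ZJCenter.centerThompsonOf_eq, ← hfP, ZJCenter.Z_map f hf1]
  set C := Subgroup.centralizer (Zg : Set G) with hC
  set N := Subgroup.normalizer (Zg : Set G) with hN
  have hPN : (P : Subgroup G) ≤ N := by
    rw [hN, ← hZgP, ZJCenter.centerThompsonOf_eq]
    exact Subgroup.le_normalizer.trans (ZJCenter.normalizer_le_normalizer_Z _)
  set Jg := J.map f with hJg
  have hJgeq : Jg = (P : Subgroup G) ⊓ C := by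
    apply le_antisymm
    · rintro _ ⟨x, hx, rfl⟩
      refine ⟨hfP.le ⟨x, trivial, rfl⟩, Subgroup.mem_centralizer_iff.2 ?_⟩
      rintro _ ⟨y, hy, rfl⟩
      rw [← map_mul, ← map_mul, Subgroup.mem_centralizer_iff.1 hx y hy]
    · rintro g ⟨hgP, hgC⟩
      obtain ⟨x, -, rfl⟩ := hfP.ge hgP
      refine ⟨x, Subgroup.mem_centralizer_iff.2 fun y hy => hf ?_, rfl⟩
      rw [map_mul, map_mul, Subgroup.mem_centralizer_iff.1 hgC _ ⟨y, hy, rfl⟩]
  have hJC : Jg ≤ C := hJgeq.le.trans inf_le_right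
  have hCN : C ≤ N := Subgroup.centralizer_le_normalizer _
  haveI hCn : (C.subgroupOf N).Normal := Subgroup.normal_subgroupOf_of_le_normalizer
    (Components.normalizer_le_normalizer_centralizer _)
  let PN : Sylow p N := P.subtype hPN
  -- `Jg` is a Sylow subgroup of `C`
  let fJ : J →* C := (f.comp J.subtype).codRestrict C fun x => hJC ⟨x, x.2, rfl⟩
  have hfJinj : Function.Injective fJ := fun x y h => J.subtype_injective (hf (congrArg Subtype.val h))
  obtain ⟨PC, hPC⟩ : ∃ PC : Sylow p C, (PC : Subgroup C) = fJ.range := by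
    obtain ⟨Q, hQ⟩ := PReduced.exists_sylow_inf_of_le P (N := N) hPN hCN
      (Components.normalizer_le_normalizer_centralizer _)
    refine ⟨Q, ?_⟩
    rw [hQ, ← hJgeq]
    ext z
    constructor
    · rintro ⟨w, hw, hwz⟩; exact ⟨⟨w, hw⟩, Subtype.ext hwz⟩
    · rintro ⟨w, rfl⟩; exact ⟨w, w.2, rfl⟩
  -- the induced embedding modulo the centre
  set Zc := Zg.subgroupOf C with hZc
  have hZcc : Zc ≤ Subgroup.center C := fun z hz =>
    Subgroup.mem_center_iff.2 fun w => Subtype.ext (Subgroup.mem_centralizer_iff.1 w.2 z hz).symm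
  haveI : Zc.Normal := ⟨fun z hz w => by
    rw [Subgroup.mem_center_iff.1 (hZcc hz) w, mul_inv_cancel_right]; exact hz⟩
  have hker : ∀ x : J, fJ x ∈ Zc ↔ x ∈ Z₀ := fun x => by
    constructor
    · rintro ⟨y, hy, hyx⟩
      show (x : S) ∈ Zt
      rwa [← show y = (x : S) from hf hyx]
    · intro hx; exact ⟨x, hx, rfl⟩
  let fb : J ⧸ Z₀ →* C ⧸ Zc := QuotientGroup.map Z₀ Zc fJ fun x hx => (hker x).2 hx
  have hfb : Function.Injective fb := by
    rw [← MonoidHom.ker_eq_bot_iff, Subgroup.eq_bot_iff_forall]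
    intro q hq
    obtain ⟨x, rfl⟩ := QuotientGroup.mk'_surjective Z₀ q
    exact (QuotientGroup.eq_one_iff x).2 ((hker x).1 ((QuotientGroup.eq_one_iff _).1 (MonoidHom.mem_ker.1 hq)))
  let PQ := PC.mapSurjective (QuotientGroup.mk'_surjective Zc)
  have hCquot : Cfsg.HasNormalPComplement p (C ⧸ Zc) := by
    refine hKbD (C ⧸ Zc) fb hfb PQ ?_ fun g hg hgo => ?_
    · rw [Sylow.coe_mapSurjective, hPC, MonoidHom.range_eq_map, MonoidHom.range_eq_map, Subgroup.map_map,
        ← Subgroup.map_top_of_surjective (QuotientGroup.mk' Z₀) (QuotientGroup.mk'_surjective Z₀), Subgroup.map_map]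
      rfl
    obtain ⟨g, rfl⟩ := QuotientGroup.mk'_surjective Zc g
    obtain ⟨x, -, hxg, hxo⟩ := HallHigmanB.exists_coprime_lift (QuotientGroup.mk' Zc) (Subgroup.mem_top g) hgo
    rw [← hxg] at hg ⊢
    have hxN : (x : G) ∈ Subgroup.normalizer ((K.map f : Subgroup G) : Set G) := by
      refine Subgroup.mem_normalizer_fintype fun v hv => ?_
      obtain ⟨_, ⟨y, hy, rfl⟩, rfl⟩ := hv
      obtain ⟨w, hw, hwe⟩ := (Subgroup.mem_normalizer_iff.1 hg (fb (QuotientGroup.mk' Z₀ y))).1 ⟨_, hy, rfl⟩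
      obtain ⟨w, rfl⟩ := QuotientGroup.mk'_surjective Z₀ w
      have h1 : QuotientGroup.mk' Zc (fJ w) = QuotientGroup.mk' Zc (x * fJ y * x⁻¹) := by
        rw [map_mul, map_mul, map_inv]; exact hwe
      obtain ⟨t, ht, hte⟩ := QuotientGroup.eq.1 h1 |> fun h => (⟨_, h, rfl⟩ :
        ∃ t ∈ Zc, t = (fJ w)⁻¹ * (x * fJ y * x⁻¹))
      obtain ⟨s, hs, hst⟩ := ht
      refine ⟨(w : S) * s, K.mul_mem ⟨w, hw, rfl⟩ (hZK hs), ?_⟩
      rw [map_mul, hst, hte]
      show (fJ w : G) * ((fJ w : G)⁻¹ * ((x : G) * f y * (x : G)⁻¹)) = _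
      rw [mul_inv_cancel_left]
      rfl
    have hxK := hyp x hxN (by rwa [Subgroup.orderOf_coe])
    refine Subgroup.mem_centralizer_iff.2 ?_
    rintro _ ⟨w, hw, rfl⟩
    obtain ⟨w, rfl⟩ := QuotientGroup.mk'_surjective Z₀ w
    show QuotientGroup.mk' Zc (fJ w) * QuotientGroup.mk' Zc x = QuotientGroup.mk' Zc x * QuotientGroup.mk' Zc (fJ w)
    rw [← map_mul, ← map_mul]
    exact congrArg _ (Subtype.ext (Subgroup.mem_centralizer_iff.1 hxK _ ⟨w, ⟨w, hw, rfl⟩, rfl⟩))
  have hCcomp : Cfsg.HasNormalPComplement p C := by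
    refine hasNormalPComplement_of_central Zc ?_ hZcc hCquot
    exact ((hS.to_subgroup Zt).map f).comap_of_injective C.subtype C.subtype_injective
  -- p'-elements normalizing `Jg` centralize it
  have hJcen : ∀ g ∈ Subgroup.normalizer (Jg : Set G), (orderOf g).Coprime p →
      g ∈ Subgroup.centralizer (Jg : Set G) := by
    intro g hg hgo
    let e := J.equivMapOfInjective f hf
    have hKg : g ∈ Subgroup.normalizer ((K.map f : Subgroup G) : Set G) := by
      refine Subgroup.mem_normalizer_fintype fun v hv => ?_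
      obtain ⟨_, ⟨y, hy, rfl⟩, rfl⟩ := hv
      let c : Jg ≃* Jg :=
        { toFun := fun u => ⟨g * u * g⁻¹, (Subgroup.mem_normalizer_iff.1 hg u).1 u.2⟩
          invFun := fun u => ⟨g⁻¹ * u * g⁻¹⁻¹,
            (Subgroup.mem_normalizer_iff.1 (inv_mem hg) u).1 u.2⟩
          left_inv := fun u => Subtype.ext (by simp [mul_assoc])
          right_inv := fun u => Subtype.ext (by simp [mul_assoc])
          map_mul' := fun u v => Subtype.ext (by simp [mul_assoc]) }
      let ψ : J ≃* J := (e.trans c).trans e.symm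
      refine ⟨ψ y, ⟨ψ y, hK1inv ψ y hy, rfl⟩, ?_⟩
      have h1 := congrArg (fun z : Jg => (z : G)) (e.apply_symm_apply (c (e y)))
      exact h1
    have hK2 := hyp g hKg hgo
    haveI : Group.IsNilpotent Jg := ((hS.to_subgroup J).map f).isNilpotent
    obtain ⟨a, ha⟩ := IsPGroup.iff_card.1 ((hS.to_subgroup J).map f)
    refine BenderUnique.mem_centralizer_of_coprime hg (ha ▸ hgo.pow_right a) _ _ rfl (Subgroup.map_mono hKJ) ?_ hK2
    rintro v ⟨⟨y, hy, rfl⟩, hv⟩
    exact ⟨y, hCK (Subgroup.mem_centralizer_iff.2 fun k hk => hf (by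
      rw [map_mul, map_mul, Subgroup.mem_centralizer_iff.1 hv _ ⟨k, hk, rfl⟩])), rfl⟩
  -- Frattini argument in `N`
  have hNcomp : Cfsg.HasNormalPComplement p N := by
    let Q : Sylow p (C.subgroupOf N) := PC.comapOfInjective
      (Subgroup.subgroupOfEquivOfLe hCN).toMonoidHom (Subgroup.subgroupOfEquivOfLe hCN).injective
      (by rw [MonoidHom.range_eq_top.2 (Subgroup.subgroupOfEquivOfLe hCN).surjective]; exact le_top)
    have hfr := Sylow.normalizer_sup_eq_top Q
    set QN := (Q : Subgroup (C.subgroupOf N)).map (C.subgroupOf N).subtype with hQN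
    have hQJ : ∀ u : N, u ∈ QN ↔ (u : G) ∈ Jg := by
      intro u
      constructor
      · rintro ⟨⟨w, hw⟩, hq, rfl⟩
        have hq' : (⟨(w : G), hw⟩ : C) ∈ fJ.range := hPC ▸ hq
        obtain ⟨s, hs⟩ := hq'
        exact ⟨s, s.2, congrArg Subtype.val hs⟩
      · rintro ⟨s, hs, hsu⟩
        refine ⟨⟨u, hJC ⟨s, hs, hsu⟩⟩, ?_, rfl⟩
        show (⟨(u : G), _⟩ : C) ∈ (PC : Subgroup C)
        rw [hPC]
        exact ⟨⟨s, hs⟩, Subtype.ext hsu⟩
    have hmod : IsPGroup p (N ⧸ C.subgroupOf N) := by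
      intro q
      obtain ⟨m, rfl⟩ := QuotientGroup.mk'_surjective (C.subgroupOf N) q
      obtain ⟨a, ha, c, hc, rfl⟩ := Subgroup.mem_sup_of_normal_right.1 (hfr.ge (Subgroup.mem_top m))
      obtain ⟨i, k, hk, hord⟩ := Nat.exists_eq_pow_mul_and_not_dvd (orderOf_pos a).ne' p hp.out.ne_one
      refine ⟨i, ?_⟩
      rw [map_mul, show QuotientGroup.mk' (C.subgroupOf N) c = 1 from (QuotientGroup.eq_one_iff c).2 hc, mul_one,
        ← map_pow]
      refine (QuotientGroup.eq_one_iff _).2 ?_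
      show ((a ^ p ^ i : N) : G) ∈ C
      have hap : (a ^ p ^ i : N) ∈ Subgroup.normalizer (QN : Set N) := pow_mem ha _
      have hg1 : ((a ^ p ^ i : N) : G) ∈ Subgroup.normalizer (Jg : Set G) := by
        refine Subgroup.mem_normalizer_fintype fun v hv => ?_
        have hvN : v ∈ N := hCN (hJC hv)
        exact (hQJ _).1 ((Subgroup.mem_normalizer_iff.1 hap ⟨v, hvN⟩).1 ((hQJ ⟨v, hvN⟩).2 hv))
      have hg2 := hJcen _ hg1 (by
        rw [Subgroup.orderOf_coe]
        refine Nat.Coprime.coprime_dvd_left (orderOf_dvd_of_pow_eq_one ?_) (hp.out.coprime_iff_not_dvd.2 hk).symm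
        rw [← pow_mul, ← hord, pow_orderOf_eq_one])
      exact Subgroup.centralizer_le (Subgroup.map_mono hZJ) hg2
    have hC' : Cfsg.HasNormalPComplement p (C.subgroupOf N) :=
      (Transfer.hasNormalPComplement_congr (Subgroup.subgroupOfEquivOfLe hCN)).2 hCcomp
    haveI : (Cfsg.pResidual p (C.subgroupOf N)).Characteristic := Transfer.pResidual_characteristic
    refine Transfer.hasNormalPComplement_of_normal ((Cfsg.pResidual p (C.subgroupOf N)).map (C.subgroupOf N).subtype)
      (by rw [Subgroup.card_map_of_injective (C.subgroupOf N).subtype_injective]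
          exact Transfer.hasNormalPComplement_iff.1 hC') ?_
    obtain ⟨j, hj⟩ := Transfer.index_pResidual (p := p) (G := C.subgroupOf N)
    obtain ⟨k, hk⟩ := IsPGroup.iff_card.1 hmod
    refine IsPGroup.of_card (n := j + k) ?_
    rw [← Subgroup.index_eq_card, Subgroup.index_map_subtype, hj, Subgroup.index_eq_card, hk, pow_add]
  refine ZJ.hasNormalPComplement_of_centerThompsonOf hp2 P (D := (P : Subgroup G)) ⟨le_rfl, fun _ _ _ h => h⟩ ?_
  rwa [hZgP]

/-- In a p-nilpotent group, p'-elements normalizing a p-subgroup centralize it. -/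
theorem mem_centralizer_of_complement {G : Type u} [Group G] [Finite G] (h : Cfsg.HasNormalPComplement p G)
    {Q : Subgroup G} (hQ : IsPGroup p Q) {g : G} (hg : g ∈ Subgroup.normalizer (Q : Set G))
    (hgo : (orderOf g).Coprime p) : g ∈ Subgroup.centralizer (Q : Set G) := by
  haveI := Transfer.pResidual_normal (p := p) (G := G)
  refine Subgroup.mem_centralizer_iff.2 fun x hx => ?_
  have h1 : ⁅g, x⁆ ∈ Cfsg.pResidual p G ⊓ Q := by
    refine ⟨?_, Q.mul_mem ((Subgroup.mem_normalizer_iff.1 hg x).1 hx) (Q.inv_mem hx)⟩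
    rw [commutatorElement_def, mul_assoc g, mul_assoc g]
    exact mul_mem (Transfer.mem_pResidual_of_coprime hgo)
      (Subgroup.Normal.conj_mem inferInstance _ (inv_mem (Transfer.mem_pResidual_of_coprime hgo)) x)
  obtain ⟨i, hi⟩ := IsPGroup.iff_card.1 hQ
  have h2 : Cfsg.pResidual p G ⊓ Q = ⊥ := by
    refine Subgroup.inf_eq_bot_of_coprime ?_
    rw [hi]
    exact (hp.out.coprime_iff_not_dvd.2 (Transfer.hasNormalPComplement_iff.1 h)).symm.pow_right i
  rw [h2, Subgroup.mem_bot] at h1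
  exact (commutatorElement_eq_one_iff_mul_comm.1 h1).symm

theorem exists_deciding (hp2 : p ≠ 2) (S : Type u) [Group S] [Finite S] (hS : IsPGroup p S) :
    ∃ K : Subgroup S, K.Characteristic ∧ Subgroup.centralizer (K : Set S) ≤ K ∧
      ∀ (G : Type u) [Group G] [Finite G] (P : Sylow p G) (e : ↥(P : Subgroup G) ≃* S),
        Cfsg.HasNormalPComplement p G ↔
          ∀ g ∈ Subgroup.normalizer (((K.comap (e : ↥(P : Subgroup G) →* S)).map (P : Subgroup G).subtype : Subgroup G) : Set G),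
            (orderOf g).Coprime p →
              g ∈ Subgroup.centralizer (((K.comap (e : ↥(P : Subgroup G) →* S)).map (P : Subgroup G).subtype : Subgroup G) : Set G) := by
  obtain ⟨K, hK1, hK2, hK3⟩ := exists_decides hp2 _ S rfl hS
  refine ⟨K, hK1, hK2, fun G _ _ P e => ⟨fun h g hg hgo => ?_, fun h => ?_⟩⟩
  · exact mem_centralizer_of_complement h (P.isPGroup'.to_le (Subgroup.map_subtype_le _)) hg hgo
  · set f := (P : Subgroup G).subtype.comp e.symm.toMonoidHom with hf
    have hKf : K.map f = (K.comap (e : ↥(P : Subgroup G) →* S)).map (P : Subgroup G).subtype := by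
      rw [hf, ← Subgroup.map_map]
      congr 1
      exact (Subgroup.comap_equiv_eq_map_symm e K).symm
    refine hK3 G f ((P : Subgroup G).subtype_injective.comp e.symm.injective) P ?_ fun g hg hgo => ?_
    · rw [hf, MonoidHom.range_comp, MonoidHom.range_eq_top.2 e.symm.surjective, ← MonoidHom.range_eq_map,
        Subgroup.range_subtype]
    · rw [hKf] at hg ⊢
      exact h g hg hgo

end CfsgLib.ZJ.SelfCentralizing
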