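import Cfsg.Agent.ZJ.Fpf

/-!
The Hughes–Thompson theorem: for a group which is not a `p`-group a proper Hughes subgroup is nilpotent
of index `p`.
-/

set_option autoImplicit false

namespace CfsgLib.ZJ

open scoped commutatorElement IsMulCommutative

universe u

variable {G : Type u} [Group G] {p : ℕ}

theorem twistProd_conj (v t : G) (n : ℕ) : twistProd (MulAut.conj t) v n * t ^ n = (v * t) ^ n := by
  induction n with
  | zero => simp [twistProd]
  | succ n ih =>
    rw [twistProd, pow_succ' t, pow_succ' (v * t), MulAut.conj_apply]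
    calc v * (t * twistProd (MulAut.conj t) v n * t⁻¹) * (t * t ^ n)
        = v * t * (twistProd (MulAut.conj t) v n * t ^ n) := by group
      _ = v * t * (v * t) ^ n := by rw [ih]

/-- A normal subgroup all of whose outside elements have order `p` is nilpotent if proper. -/
theorem isNilpotent_of_outside_pow_eq_one [Finite G] (hp : p.Prime) (H : Subgroup G) [hH : H.Normal]
    (hne : H ≠ ⊤) (hout : ∀ g : G, g ∉ H → g ^ p = 1) : Group.IsNilpotent H := by
  obtain ⟨x, hx⟩ : ∃ x, x ∉ H := by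
    by_contra h
    push Not at h
    exact hne (eq_top_iff.2 fun g _ => h g)
  refine isNilpotent_of_splitting hp (α := MulAut.conjNormal x) fun h => Subtype.ext ?_
  have h1 := map_twistProd (α := MulAut.conj x) (β := (MulAut.conjNormal x : MulAut H)) H.subtype
    (fun y => MulAut.conjNormal_apply x y) h p
  have h2 := twistProd_conj (h : G) x p
  rw [hout x hx, mul_one, hout _ fun hc => hx (by
    have := H.mul_mem (H.inv_mem h.2) hc
    simpa using this)] at h2
  exact h1.trans h2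

variable [Finite G] [hp : Fact p.Prime]

/-- The index is `p` unless the group is a `p`-group. -/
theorem index_eq_of_outside_pow_eq_one (H : Subgroup G) [hH : H.Normal] (hne : H ≠ ⊤)
    (hout : ∀ g : G, g ∉ H → g ^ p = 1) (hG : ¬ IsPGroup p G) : H.index = p := by
  have hQp : IsPGroup p (G ⧸ H) := by
    intro x
    obtain ⟨g, rfl⟩ := QuotientGroup.mk'_surjective H x
    refine ⟨1, ?_⟩
    by_cases hg : g ∈ H
    · rw [show QuotientGroup.mk' H g = 1 from (QuotientGroup.eq_one_iff g).2 hg, one_pow]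
    · rw [pow_one, ← map_pow, hout g hg, map_one]
  obtain ⟨k, hk⟩ := IsPGroup.iff_card.1 hQp
  rw [Subgroup.index_eq_card, hk]
  have hk1 : k ≠ 0 := by
    rintro rfl
    exact hne (Subgroup.index_eq_one.1 (by rw [Subgroup.index_eq_card, hk, pow_zero]))
  by_contra hkp
  have hk2 : 2 ≤ k := by
    rcases k with _ | _ | k
    · exact absurd rfl hk1
    · exact absurd (pow_one p) hkp
    · omega
  -- a prime `q ≠ p` dividing `|H|`, a Sylow subgroup and its normalizer
  obtain ⟨q, hq, hqd, hqp⟩ : ∃ q, q.Prime ∧ q ∣ Nat.card H ∧ q ≠ p := by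
    by_contra h
    push Not at h
    refine hG (IsPGroup.of_card (n := (Nat.card G).primeFactorsList.length)
      (Nat.eq_prime_pow_of_unique_prime_dvd Nat.card_pos.ne' fun {d} hd hdvd => ?_))
    rw [Subgroup.card_eq_card_quotient_mul_card_subgroup H, hk] at hdvd
    rcases hd.dvd_mul.1 hdvd with h1 | h1
    · exact (Nat.prime_dvd_prime_iff_eq hd hp.out).1 (hd.dvd_of_dvd_pow h1)
    · exact h d hd h1
  haveI := Fact.mk hq
  obtain ⟨Q⟩ : Nonempty (Sylow q H) := inferInstance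
  set Qm := (Q : Subgroup H).map H.subtype with hQm
  set N := Subgroup.normalizer (Qm : Set G) with hN
  have hfr : N ⊔ H = ⊤ := Sylow.normalizer_sup_eq_top Q
  have hQmp : IsPGroup q Qm := Q.2.map _
  set Z := Qm ⊓ Subgroup.centralizer (Qm : Set G) with hZ
  have hZ0 : Z ≠ ⊥ := center_inf_ne_bot hQmp (by
    rw [hQm, Ne, Subgroup.map_eq_bot_iff_of_injective _ H.subtype_injective]
    exact Q.ne_bot_of_dvd_card hqd)
  haveI hZc : IsMulCommutative Z :=
    ⟨⟨fun a b => Subtype.ext (Subgroup.mem_centralizer_iff.1 b.2.2 a a.2.1)⟩⟩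
  have hNZ : N ≤ Subgroup.normalizer (Z : Set G) := le_normalizer_centerInf Qm
  obtain ⟨S⟩ : Nonempty (Sylow p N) := inferInstance
  set Y := (S : Subgroup N).map N.subtype with hY
  have hYp : IsPGroup p Y := S.2.map _
  have hcov : ∀ x : G ⧸ H, ∃ y ∈ Y, QuotientGroup.mk' H y = x := by
    have hsurj : Function.Surjective ((QuotientGroup.mk' H).comp N.subtype) := by
      intro x
      obtain ⟨g, rfl⟩ := QuotientGroup.mk'_surjective H x
      obtain ⟨n, hn, h, hh, rfl⟩ := Subgroup.mem_sup_of_normal_right.1 (hfr.ge (Subgroup.mem_top g))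
      exact ⟨⟨n, hn⟩, by
        rw [map_mul, show QuotientGroup.mk' H h = 1 from (QuotientGroup.eq_one_iff h).2 hh, mul_one]; rfl⟩
    intro x
    have htop : ((S.mapSurjective hsurj : Sylow p (G ⧸ H)) : Subgroup (G ⧸ H)) = ⊤ :=
      ((S.mapSurjective hsurj).3 (fun x => by
        obtain ⟨j, hj⟩ := hQp x
        exact ⟨j, Subtype.ext (by simpa using congrArg id hj)⟩) le_top).symm ▸ rfl
    have hx : x ∈ ((S.mapSurjective hsurj : Sylow p (G ⧸ H)) : Subgroup (G ⧸ H)) := htop ▸ Subgroup.mem_top x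
    rw [Sylow.coe_mapSurjective] at hx
    obtain ⟨n, hn, rfl⟩ := hx
    exact ⟨n, ⟨n, hn, rfl⟩, rfl⟩
  have hYN : Y ≤ N := Subgroup.map_subtype_le _
  set cj : ↥Y → Z → Z := fun g v =>
    ⟨(g : G) * v * (g : G)⁻¹, (Subgroup.mem_normalizer_iff.1 (hNZ (hYN g.2)) v).1 v.2⟩ with hcj
  have hcjmul : ∀ (a b : Y) (v : Z), cj (a * b) v = cj a (cj b v) := fun a b v =>
    Subtype.ext (by simp [hcj, mul_assoc])
  have hcjprod : ∀ (a : Y) {ι : Type u} (s : Finset ι) (f : ι → Z),
      cj a (∏ i ∈ s, f i) = ∏ i ∈ s, cj a (f i) := by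
    intro a ι s f
    let φ : Z →* Z :=
      { toFun := cj a
        map_one' := Subtype.ext (by simp [hcj])
        map_mul' := fun x y => Subtype.ext (by simp [hcj, mul_assoc]) }
    exact map_prod φ f s
  have hYout : ∀ t : Y, (t : G) ∉ H → t ^ p = 1 := fun t ht => Subtype.ext (by simpa using hout t ht)
  have hnotp : ∀ v : Z, v ^ p = 1 → v = 1 := by
    intro v hv
    obtain ⟨j, hj⟩ := IsPGroup.iff_card.1 (hQmp.to_le (inf_le_left : Z ≤ Qm))
    exact orderOf_eq_one_iff.1 (Nat.eq_one_of_dvd_coprimes (((Nat.coprime_primes hq hp.out).2 hqp).pow_left j)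
      (hj ▸ orderOf_dvd_natCard v) (orderOf_dvd_of_pow_eq_one hv))
  -- splitting identity
  have hline : ∀ (t : Y), (t : G) ∉ H → ∀ v : Z, ∏ i ∈ Finset.range p, cj (t ^ i) v = 1 := by
    intro t ht v
    have key : ∀ m, ((∏ i ∈ Finset.range m, cj (t ^ i) v : Z) : G) = twistProd (MulAut.conj (t : G)) v m := by
      intro m
      induction m with
      | zero => simp [twistProd]
      | succ m hm =>
        rw [Finset.prod_range_succ, Subgroup.coe_mul, hm, twistProd_add, twistProd_one, ← map_pow,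
          MulAut.conj_apply]
        simp [hcj]
    refine Subtype.ext ((key p).trans ?_)
    have h2 := twistProd_conj (v : G) t p
    rw [hout _ ht, mul_one] at h2
    rw [h2]
    refine hout _ fun hc => ht ?_
    have := H.mul_mem (H.inv_mem (Subgroup.map_subtype_le _ v.2.1)) hc
    simpa using this
  have hfpf : ∀ (t : Y), (t : G) ∉ H → ∀ v : Z, cj t v = v → v = 1 := by
    intro t ht v hv
    refine hnotp v ?_
    have h1 := hline t ht v
    have h2 : ∀ i : ℕ, cj (t ^ i) v = v := by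
      intro i
      induction i with
      | zero => exact Subtype.ext (by simp [hcj])
      | succ i hi => rw [pow_succ, hcjmul, hv, hi]
    rw [Finset.prod_congr rfl fun i _ => h2 i, Finset.prod_const, Finset.card_range] at h1
    exact h1
  have hpow_inj : ∀ {i : ℕ}, 0 < i → i < p → ∀ a b : Y, (a : G) ∉ H → (b : G) ∉ H → a ^ i = b ^ i → a = b := by
    intro i hi hip a b ha hb hab
    obtain ⟨k, hk⟩ := Nat.exists_mul_mod_eq_one_of_coprime
      ((Nat.coprime_comm).1 (hp.out.coprime_iff_not_dvd.2 (Nat.not_dvd_of_pos_of_lt hi hip))) hp.out.one_lt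
    have h1 : ∀ c : Y, (c : G) ∉ H → (c ^ i) ^ k = c := fun c hc => by
      rw [← pow_mul, ← Nat.div_add_mod (i * k) p, pow_add, pow_mul, hYout c hc, one_pow, one_mul, hk.2, pow_one]
    rw [← h1 a ha, hab, h1 b hb]
  have hH_of : ∀ t : Y, ∀ i : ℕ, 0 < i → i < p → (t : G) ∉ H → ((t ^ i : Y) : G) ∉ H := by
    intro t i hi hip ht hc
    apply ht
    obtain ⟨k, hk⟩ := Nat.exists_mul_mod_eq_one_of_coprime
      ((Nat.coprime_comm).1 (hp.out.coprime_iff_not_dvd.2 (Nat.not_dvd_of_pos_of_lt hi hip))) hp.out.one_lt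
    have h1 : ((t ^ i) ^ k : Y) = t := by
      rw [← pow_mul, ← Nat.div_add_mod (i * k) p, pow_add, pow_mul, hYout t ht, one_pow, one_mul, hk.2, pow_one]
    rw [← h1, Subgroup.coe_pow]
    exact H.pow_mem hc k
  set Y₀ := H.subgroupOf Y with hY₀
  -- the fixed points of `Y ∩ H` are not trivial
  obtain ⟨v₀, hv₀, hv₁⟩ : ∃ v : Z, (∀ a : Y, (a : G) ∈ H → cj a v = v) ∧ v ≠ 1 := by
    by_contra hcon
    push Not at hcon
    haveI := Fintype.ofFinite Y₀
    obtain ⟨y, hy⟩ : ∃ y : Y, (y : G) ∉ H := by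
      haveI : Nontrivial (G ⧸ H) := Finite.one_lt_card_iff_nontrivial.1 (by
        rw [hk]; exact Nat.one_lt_pow hk1 hp.out.one_lt)
      obtain ⟨x, hx⟩ := exists_ne (1 : G ⧸ H)
      obtain ⟨y, hy, rfl⟩ := hcov x
      exact ⟨⟨y, hy⟩, fun h => hx ((QuotientGroup.eq_one_iff y).2 h)⟩
    obtain ⟨w, hw1⟩ : ∃ w : Z, w ≠ 1 := by
      haveI : Nontrivial Z := Z.nontrivial_iff_ne_bot.2 hZ0
      exact exists_ne 1
    have hsum : ∀ u : Z, ∏ a : Y₀, cj (a : Y) u = 1 := by
      intro u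
      refine hcon _ fun b hb => ?_
      rw [hcjprod b]
      refine Fintype.prod_equiv (Equiv.mulLeft (⟨b, hb⟩ : Y₀)) _ _ fun a => ?_
      rw [← hcjmul]
      rfl
    have hyout : ∀ a : Y₀, ((y * (a : Y) : Y) : G) ∉ H := fun a hc => hy (by
      have := H.mul_mem hc (H.inv_mem a.2)
      simpa using this)
    have h2 : ∏ i ∈ Finset.range p, ∏ a : Y₀, cj ((y * (a : Y)) ^ i) w = 1 := by
      rw [Finset.prod_comm]
      exact Finset.prod_eq_one fun a _ => hline _ (hyout a) w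
    rw [Finset.prod_eq_single 0 (fun i hi hi0 => ?_) (fun h => absurd (Finset.mem_range.2 hp.out.pos) h)] at h2
    · rw [Finset.prod_congr rfl (fun (a : Y₀) _ => (Subtype.ext (by simp [hcj]) : cj ((y * (a : Y)) ^ 0) w = w)),
        Finset.prod_const, Finset.card_univ, ← Nat.card_eq_fintype_card] at h2
      obtain ⟨j, hj⟩ := IsPGroup.iff_card.1 (hYp.to_subgroup Y₀)
      obtain ⟨l, hl⟩ := IsPGroup.iff_card.1 (hQmp.to_le (inf_le_left : Z ≤ Qm))
      exact hw1 (orderOf_eq_one_iff.1 (Nat.eq_one_of_dvd_coprimes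
        ((((Nat.coprime_primes hq hp.out).2 hqp).pow_left l).pow_right j)
        (hl ▸ orderOf_dvd_natCard w) (hj ▸ orderOf_dvd_of_pow_eq_one h2)))
    · have hi' := Nat.pos_of_ne_zero hi0
      have hip := Finset.mem_range.1 hi
      have hmem : ∀ a : Y₀, (y ^ i)⁻¹ * (y * (a : Y)) ^ i ∈ Y₀ := fun a => by
        show ((((y ^ i)⁻¹ * (y * (a : Y)) ^ i : Y)) : G) ∈ H
        rw [← QuotientGroup.eq_one_iff, Subgroup.coe_mul, Subgroup.coe_inv, Subgroup.coe_pow, Subgroup.coe_pow,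
          Subgroup.coe_mul]
        simp [(QuotientGroup.eq_one_iff ((a : Y) : G)).2 a.2]
      set τ : Y₀ → Y₀ := fun a => ⟨(y ^ i)⁻¹ * (y * (a : Y)) ^ i, hmem a⟩ with hτ
      have hτi : Function.Injective τ := fun a b hab => by
        have h3 := hpow_inj hi' hip _ _ (hyout a) (hyout b) (mul_left_cancel (congrArg Subtype.val hab))
        exact Subtype.ext (mul_left_cancel h3)
      calc ∏ a : Y₀, cj ((y * (a : Y)) ^ i) w = ∏ a : Y₀, cj (y ^ i) (cj (τ a : Y) w) :=
            Finset.prod_congr rfl fun a _ => by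
              rw [← hcjmul]
              simp [hτ]
        _ = cj (y ^ i) (∏ a : Y₀, cj (τ a : Y) w) := (hcjprod _ _ _).symm
        _ = cj (y ^ i) 1 := by
          rw [Fintype.prod_bijective τ ((Finite.injective_iff_bijective).1 hτi) (fun a => cj (τ a : Y) w)
            (fun a => cj (a : Y) w) fun a => rfl, hsum w]
        _ = 1 := Subtype.ext (by simp [hcj])
  -- two independent cosets
  obtain ⟨E, hE⟩ : ∃ E : Subgroup (G ⧸ H), Nat.card E = p ^ 2 :=
    Sylow.exists_subgroup_card_pow_prime p (hk ▸ pow_dvd_pow p hk2)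
  haveI hEc : IsMulCommutative E := IsPGroup.isMulCommutative_of_card_eq_prime_sq hE
  haveI : Nontrivial E := Finite.one_lt_card_iff_nontrivial.1 (by
    rw [hE]; exact Nat.one_lt_pow two_ne_zero hp.out.one_lt)
  obtain ⟨e₁, he₁⟩ := exists_ne (1 : E)
  obtain ⟨e₂, he₂⟩ : ∃ e₂ : E, e₂ ∉ Subgroup.zpowers e₁ := by
    by_contra h
    push Not at h
    have h1 : orderOf e₁ = p ^ 2 := hE ▸ orderOf_eq_card_of_forall_mem_zpowers h
    have h2 : orderOf e₁ ∣ p := orderOf_dvd_of_pow_eq_one (Subtype.ext (by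
      obtain ⟨g, hg⟩ := QuotientGroup.mk'_surjective H (e₁ : G ⧸ H)
      rw [Subgroup.coe_pow, ← hg, ← map_pow, hout g fun hgH => he₁ (Subtype.ext (by
        rw [← hg]; exact (QuotientGroup.eq_one_iff g).2 hgH)), map_one]; rfl))
    rw [h1] at h2
    have h3 := Nat.le_of_dvd hp.out.pos h2
    nlinarith [hp.out.two_le]
  obtain ⟨g₁, hg₁, hg₁e⟩ := hcov e₁
  obtain ⟨g₂, hg₂, hg₂e⟩ := hcov e₂
  set y₁ : Y := ⟨g₁, hg₁⟩
  set y₂ : Y := ⟨g₂, hg₂⟩
  have hy₁ : (y₁ : G) ∉ H := fun h => he₁ (Subtype.ext (by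
    rw [← hg₁e]; exact (QuotientGroup.eq_one_iff g₁).2 h))
  set π : Y →* G ⧸ H := (QuotientGroup.mk' H).comp Y.subtype with hπ
  have hout₂ : ∀ n : ℕ, ((y₁ ^ n * y₂ : Y) : G) ∉ H := by
    intro n hc
    apply he₂
    have h1 : π (y₁ ^ n * y₂) = 1 := (QuotientGroup.eq_one_iff _).2 hc
    rw [map_mul, map_pow, show π y₁ = (e₁ : G ⧸ H) from hg₁e, show π y₂ = (e₂ : G ⧸ H) from hg₂e] at h1
    refine ⟨-(n : ℤ), Subtype.ext ?_⟩
    simp only [zpow_neg, zpow_natCast, Subgroup.coe_inv, Subgroup.coe_pow]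
    exact inv_eq_of_mul_eq_one_right h1
  have hcomm : ∀ a b : Y, π a = π b → cj a v₀ = cj b v₀ := by
    intro a b hab
    have hmem : ((b⁻¹ * a : Y) : G) ∈ H := by
      rw [← QuotientGroup.eq_one_iff]
      show π (b⁻¹ * a) = 1
      rw [map_mul, map_inv, hab, inv_mul_cancel]
    have := congrArg (cj b) (hv₀ _ hmem)
    rwa [← hcjmul, mul_inv_cancel_left] at this
  -- `F j i = y₁^j y₂^i v₀`, `j : ZMod p`
  set F : ZMod p → ℕ → Z := fun j i => cj (y₁ ^ j.val * y₂ ^ i) v₀ with hF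
  have hper : ∀ n : ℕ, y₁ ^ n = y₁ ^ ((n : ZMod p)).val := fun n => by
    rw [ZMod.val_natCast, ← pow_eq_pow_mod n (hYout y₁ hy₁)]
  have hzero : ∀ i : ℕ, ∏ j : ZMod p, F j i = 1 := by
    intro i
    refine hfpf y₁ hy₁ _ ?_
    let φ : Z →* Z :=
      { toFun := cj y₁
        map_one' := Subtype.ext (by simp [hcj])
        map_mul' := fun x y => Subtype.ext (by simp [hcj, mul_assoc]) }
    refine (map_prod φ _ _).trans (Fintype.prod_equiv (Equiv.addRight (1 : ZMod p)) _ _ fun j => ?_)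
    show cj y₁ (cj (y₁ ^ j.val * y₂ ^ i) v₀) = cj (y₁ ^ (j + 1).val * y₂ ^ i) v₀
    rw [← hcjmul, ← mul_assoc, ← pow_succ']
    congr 2
    rw [hper (j.val + 1), Nat.cast_add, Nat.cast_one, ZMod.natCast_zmod_val]
  have hall : ∏ i ∈ Finset.range p, ∏ j : ZMod p, cj ((y₁ ^ j.val * y₂) ^ i) v₀ = 1 := by
    rw [Finset.prod_comm]
    exact Finset.prod_eq_one fun j _ => hline _ (hout₂ j.val) v₀
  rw [Finset.prod_eq_single 0 (fun i hi hi0 => ?_) (fun h => absurd (Finset.mem_range.2 hp.out.pos) h)] at hall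
  · rw [Finset.prod_congr rfl (fun a _ => (Subtype.ext (by simp [hcj]) : cj ((y₁ ^ a.val * y₂) ^ 0) v₀ = v₀)),
      Finset.prod_const, Finset.card_univ, ZMod.card] at hall
    exact hv₁ (hnotp v₀ hall)
  · rw [← hzero i]
    have hu : (i : ZMod p) ≠ 0 := by
      rw [Ne, ZMod.natCast_eq_zero_iff]
      exact Nat.not_dvd_of_pos_of_lt (Nat.pos_of_ne_zero hi0) (Finset.mem_range.1 hi)
    refine Fintype.prod_equiv (Equiv.mulLeft₀ (i : ZMod p) hu) _ _ fun j => ?_
    have hjj : ((i : ZMod p) * j) = ((i * j.val : ℕ) : ZMod p) := by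
      rw [Nat.cast_mul, ZMod.natCast_zmod_val]
    show cj ((y₁ ^ j.val * y₂) ^ i) v₀ = cj (y₁ ^ ((i : ZMod p) * j).val * y₂ ^ i) v₀
    rw [hjj, ← hper]
    refine hcomm _ _ ?_
    have hc : Commute (π y₁) (π y₂) := by
      rw [show π y₁ = (e₁ : G ⧸ H) from hg₁e, show π y₂ = (e₂ : G ⧸ H) from hg₂e]
      exact setLike_mul_comm e₁.2 e₂.2
    rw [map_pow, map_mul, map_pow, (hc.pow_left _).mul_pow, map_mul, map_pow, map_pow, ← pow_mul, mul_comm j.val i]

end CfsgLib.ZJ
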